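import Cfsg.Agent.Lib.Suzuki.Fixity
import Cfsg.Agent.Lib.Suzuki.Iso
import Cfsg.Agent.Lib.Binary.Core

/-! Binary coset actions of the Suzuki group: the centre of a Sylow 2-subgroup gives a binary
action. -/

set_option autoImplicit false
set_option linter.unusedSectionVars false
set_option linter.deprecated false
set_option linter.unusedSimpArgs false
set_option linter.style.longLine false
set_option linter.style.haveILetI false

namespace Cfsg.Agent.Lib.BinSz.Basic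

open Cfsg.Agent.Lib.Suzuki.Basic Cfsg.Agent.Lib.Suzuki.Group Cfsg.Agent.Lib.Suzuki.Struct
  Cfsg.Agent.Lib.Suzuki.Order Cfsg.Agent.Lib.Suzuki.Zass Cfsg.Agent.Lib.Suzuki.Sub
  Cfsg.Agent.Lib.Suzuki.Syl Cfsg.Agent.Lib.Suzuki.Gen Cfsg.Agent.Lib.Suzuki.Fix
  Cfsg.Agent.Lib.Suzuki.Cent Cfsg.Agent.Lib.Suzuki.Types Cfsg.Agent.Lib.Suzuki.Fixity
  Cfsg.Agent.Lib.Binary.Core

variable {F : Type*} [Field F] [Fintype F] {m : ℕ} (h : Hyp F m)
include h

/-- `Z` is normal in the Borel subgroup. -/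
theorem conj_Z_of_Bor {t n : G F m} (ht : t ∈ Bor F m) (hn : n ∈ Zsub h) : t * n * t⁻¹ ∈ Zsub h :=
  (Subgroup.mem_normalizer_iff.mp (Bor_le_normalizer_Z h ht) n).mp hn

theorem Z_sq {y : G F m} (hy : y ∈ Zsub h) : y * y = 1 := by
  obtain ⟨b, rfl⟩ := hy
  exact Lg_zero_sq h b

theorem cjZ_sq {x y : G F m} (hy : y ∈ cj x (Zsub h)) : y * y = 1 := by
  have h1 := Z_sq h (mem_cj.mp hy)
  have h2 : x⁻¹ * (y * y) * x = 1 := by
    rw [← h1]; group
  have h3 : y * y = x * (x⁻¹ * (y * y) * x) * x⁻¹ := by group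
  rw [h3, h2]; group

/-- A nontrivial element of `x Z x⁻¹` fixes only `x • oI`. -/
theorem cjZ_fix {x y : G F m} (hy : y ∈ cj x (Zsub h)) (hy1 : y ≠ 1) {w : Om F m}
    (hw : y • w = w) : w = x • (oI : Om F m) := by
  obtain ⟨b, hb⟩ := mem_cj.mp hy
  have hb0 : b ≠ 0 := by
    rintro rfl
    rw [Lg_zero h] at hb
    apply hy1
    have e : y = x * (x⁻¹ * y * x) * x⁻¹ := by group
    rw [e, hb]; group
  have h1 : Lg h 0 b • (x⁻¹ • w) = x⁻¹ • w := by
    rw [← hb, mul_smul, mul_smul, smul_inv_smul, hw]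
  have h2 := Lg_fix_eq h (Or.inr hb0) h1
  rw [inv_smul_eq_iff] at h2
  exact h2

theorem cjZ_fix_self {x y : G F m} (hy : y ∈ cj x (Zsub h)) : y • (x • (oI : Om F m)) = x • oI := by
  obtain ⟨b, hb⟩ := mem_cj.mp hy
  have e : y = x * Lg h 0 b * x⁻¹ := by rw [← hb]; group
  rw [e, mul_smul, mul_smul, inv_smul_smul, Lg_oI h]

theorem key {x₀ x₁ x₂ ζ u v : G F m} (hζ : ζ ∈ cj x₀ (Zsub h)) (hu : u ∈ cj x₁ (Zsub h))
    (hv : v ∈ cj x₂ (Zsub h)) (h1 : x₁ • (oI : Om F m) ≠ x₀ • oI)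
    (h2 : x₂ • (oI : Om F m) ≠ x₀ • oI) (he : ζ * u = v) : ζ = 1 := by
  by_contra hne
  by_cases hu1 : u = 1
  · subst hu1
    rw [mul_one] at he
    subst he
    exact h2 (cjZ_fix h hv hne (cjZ_fix_self h hζ)).symm
  · have sqζ := cjZ_sq h hζ
    have squ := cjZ_sq h hu
    have sqv := cjZ_sq h hv
    have hs : (ζ * u) * (ζ * u) = 1 := by rw [he]; exact sqv
    have hcomm : u * ζ = ζ * u := by
      calc u * ζ = (ζ * ζ) * u * ζ * (u * u) := by rw [sqζ, squ]; group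
        _ = ζ * ((ζ * u) * (ζ * u)) * u := by group
        _ = ζ * u := by rw [hs]; group
    obtain ⟨b, hb⟩ := mem_cj.mp hζ
    have hb0 : b ≠ 0 := by
      rintro rfl
      rw [Lg_zero h] at hb
      apply hne
      have e : ζ = x₀ * (x₀⁻¹ * ζ * x₀) * x₀⁻¹ := by group
      rw [e, hb]; group
    have hc : (x₀⁻¹ * u * x₀) * Lg h 0 b = Lg h 0 b * (x₀⁻¹ * u * x₀) := by
      rw [← hb]
      calc (x₀⁻¹ * u * x₀) * (x₀⁻¹ * ζ * x₀) = x₀⁻¹ * (u * ζ) * x₀ := by group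
        _ = x₀⁻¹ * (ζ * u) * x₀ := by rw [hcomm]
        _ = _ := by group
    obtain ⟨c, d, hcd⟩ := mem_U_of_comm h (Or.inr hb0) hc
    have hfix : u • (x₀ • (oI : Om F m)) = x₀ • oI := by
      have e : u = x₀ * Lg h c d * x₀⁻¹ := by rw [← hcd]; group
      rw [e, mul_smul, mul_smul, inv_smul_smul, Lg_oI h]
    exact h1 (cjZ_fix h hu hu1 hfix).symm

/-- The centre of a Sylow 2-subgroup gives a binary action. -/
theorem bin_Z : Bin (Zsub h) := by
  classical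
  intro n I J hn hp
  have key' : ∀ p : G F m ⧸ Zsub h, ∃ x : G F m, p = QuotientGroup.mk x := fun p => by
    obtain ⟨x, hx⟩ := QuotientGroup.mk_surjective p
    exact ⟨x, hx.symm⟩
  choose X hX using fun i => key' (I i)
  have hn0 : 0 < n := by omega
  let i₀ : Fin n := ⟨0, hn0⟩
  let i₁ : Fin n := ⟨1, by omega⟩
  have h01 : i₀ ≠ i₁ := by simp [i₀, i₁, Fin.ext_iff]
  let P : Fin n → Om F m := fun i => X i • oI
  have stab : ∀ (i : Fin n) (a b : G F m), a • I i = J i → b • I i = J i →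
      a⁻¹ * b ∈ cj (X i) (Zsub h) := by
    intro i a b ha hb
    have e : (a⁻¹ * b) • (I i) = I i := by rw [mul_smul, hb, ← ha, inv_smul_smul]
    rw [hX i] at e
    rw [mem_cj]
    exact (fix_iff _ _ _).1 e
  obtain ⟨i_s, hi_s0, hi_s⟩ : ∃ i_s, i_s ≠ i₀ ∧ ((∃ i, P i ≠ P i₀) → P i_s ≠ P i₀) := by
    by_cases hex : ∃ i, P i ≠ P i₀
    · obtain ⟨i, hi⟩ := hex
      refine ⟨i, ?_, fun _ => hi⟩
      rintro rfl
      exact hi rfl
    · exact ⟨i₁, h01.symm, fun hc => absurd hc hex⟩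
  obtain ⟨g, hg0, hgs⟩ := hp i₀ i_s hi_s0.symm
  refine ⟨g, fun i => ?_⟩
  by_cases hi0 : i = i₀
  · rw [hi0]; exact hg0
  by_cases his : i = i_s
  · rw [his]; exact hgs
  obtain ⟨g_i, hgi0, hgii⟩ := hp i₀ i (Ne.symm hi0)
  have hζ := stab i₀ g g_i hg0 hgi0
  by_cases hPi : P i = P i₀
  · have hζi : g⁻¹ * g_i ∈ cj (X i) (Zsub h) := by
      have ht : (X i)⁻¹ * X i₀ ∈ Bor F m := by
        rw [MulAction.mem_stabilizer_iff, mul_smul, inv_smul_eq_iff]
        exact hPi.symm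
      rw [mem_cj] at hζ ⊢
      have := conj_Z_of_Bor h ht hζ
      rwa [show ((X i)⁻¹ * X i₀) * ((X i₀)⁻¹ * (g⁻¹ * g_i) * X i₀) * ((X i)⁻¹ * X i₀)⁻¹ =
        (X i)⁻¹ * (g⁻¹ * g_i) * X i by group] at this
    have e1 : (g⁻¹ * g_i) • I i = I i := by
      rw [hX i]
      exact (fix_iff _ _ _).2 (mem_cj.mp hζi)
    have e2 : g • I i = g_i • I i := by
      conv_lhs => rw [← e1]
      rw [← mul_smul, mul_inv_cancel_left]
    rw [e2]
    exact hgii
  · have hPs : P i_s ≠ P i₀ := hi_s ⟨i, hPi⟩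
    obtain ⟨h', hh'i, hh's⟩ := hp i i_s his
    have hu := stab i g_i h' hgii hh'i
    have hv := stab i_s g h' hgs hh's
    have h1 := key h hζ hu hv hPi hPs (by group)
    have e : g = g_i := inv_mul_eq_one.mp h1
    rw [e]
    exact hgii

end Cfsg.Agent.Lib.BinSz.Basic
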