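import Cfsg.Agent.Lib.BinSz.Basic

/-! Binary coset actions of the Suzuki group: subgroups of even order. -/

set_option autoImplicit false
set_option linter.unusedSectionVars false
set_option linter.deprecated false
set_option linter.unusedSimpArgs false
set_option linter.style.longLine false
set_option linter.style.haveILetI false
set_option linter.unusedVariables false

namespace Cfsg.Agent.Lib.BinSz.Even

open Cfsg.Agent.Lib.Suzuki.Basic Cfsg.Agent.Lib.Suzuki.Group Cfsg.Agent.Lib.Suzuki.Struct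
  Cfsg.Agent.Lib.Suzuki.Order Cfsg.Agent.Lib.Suzuki.Zass Cfsg.Agent.Lib.Suzuki.Sub
  Cfsg.Agent.Lib.Suzuki.Syl Cfsg.Agent.Lib.Suzuki.Gen Cfsg.Agent.Lib.Suzuki.Fix
  Cfsg.Agent.Lib.Suzuki.Cent Cfsg.Agent.Lib.Suzuki.Types Cfsg.Agent.Lib.Suzuki.Fixity
  Cfsg.Agent.Lib.Suzuki.Classify Cfsg.Agent.Lib.Suzuki.SubAbs Cfsg.Agent.Lib.Suzuki.SubG
  Cfsg.Agent.Lib.Binary.Core Cfsg.Agent.Lib.BinSz.Basic

section Mult

variable {F : Type*} [Field F] [Fintype F]

/-- The multipliers of an additive subgroup of a field. -/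
def Mu (E : AddSubgroup F) : AddSubgroup F where
  carrier := {l | ∀ e ∈ E, l * e ∈ E}
  add_mem' := by
    intro a b ha hb e he
    rw [add_mul]
    exact E.add_mem (ha e he) (hb e he)
  zero_mem' := by
    intro e _
    rw [zero_mul]
    exact E.zero_mem
  neg_mem' := by
    intro a ha e he
    rw [neg_mul]
    exact E.neg_mem (ha e he)

theorem mem_Mu {E : AddSubgroup F} {l : F} : l ∈ Mu E ↔ ∀ e ∈ E, l * e ∈ E := Iff.rfl

theorem one_mem_Mu (E : AddSubgroup F) : (1 : F) ∈ Mu E := fun e he => by rwa [one_mul]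

theorem mul_mem_Mu {E : AddSubgroup F} {a b : F} (ha : a ∈ Mu E) (hb : b ∈ Mu E) : a * b ∈ Mu E :=
  fun e he => by
    rw [mul_assoc]
    exact ha _ (hb e he)

theorem pow_mem_Mu {E : AddSubgroup F} {a : F} (ha : a ∈ Mu E) (n : ℕ) : a ^ n ∈ Mu E := by
  induction n with
  | zero => simpa using one_mem_Mu E
  | succ n ih =>
    rw [pow_succ]
    exact mul_mem_Mu ih ha

theorem inv_mem_Mu {E : AddSubgroup F} {a : F} (ha : a ∈ Mu E) : a⁻¹ ∈ Mu E := by
  by_cases h0 : a = 0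
  · subst h0
    simpa using (Mu E).zero_mem
  · have h1 : a ^ (Fintype.card F - 1) = 1 := FiniteField.pow_card_sub_one_eq_one a h0
    have hq : 1 < Fintype.card F := Fintype.one_lt_card
    have e : a⁻¹ = a ^ (Fintype.card F - 2) := by
      symm
      apply eq_inv_of_mul_eq_one_left
      rw [← pow_succ]
      have : Fintype.card F - 2 + 1 = Fintype.card F - 1 := by omega
      rw [this, h1]
    rw [e]
    exact pow_mem_Mu ha _

theorem mult_contra (h2 : (2 : F) = 0) {E : AddSubgroup F} {e₀ e₁ z : F} (he₀ : e₀ ∈ E) (he₀0 : e₀ ≠ 0)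
    (he₁ : e₁ ∉ E) (hz : z ≠ 0) (h1 : z / e₁ ∈ Mu E) (h3 : z / (e₁ + e₀) ∈ Mu E) : False := by
  have he₁0 : e₁ ≠ 0 := by
    rintro rfl
    exact he₁ E.zero_mem
  have hs : e₁ + e₀ ≠ 0 := by
    intro hc
    have : e₁ = e₀ := by linear_combination hc - e₀ * h2
    exact he₁ (this ▸ he₀)
  have a1 := inv_mem_Mu h1
  have a2 := inv_mem_Mu h3
  have a3 := (Mu E).add_mem a1 a2
  have a4 : e₀ / z ∈ Mu E := by
    have e : (z / e₁)⁻¹ + (z / (e₁ + e₀))⁻¹ = e₀ / z := by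
      rw [inv_div, inv_div, ← add_div]
      congr 1
      linear_combination e₁ * h2
    rwa [e] at a3
  have a5 := inv_mem_Mu a4
  have a6 := mul_mem_Mu a1 a5
  have a7 := a6 e₀ he₀
  have e : (z / e₁)⁻¹ * (e₀ / z)⁻¹ * e₀ = e₁ := by
    field_simp
  rw [e] at a7
  exact he₁ a7

theorem ncard_pair_le' (a b : F) : ({a, b} : Set F).ncard ≤ 2 :=
  (Set.ncard_insert_le a {b}).trans (by rw [Set.ncard_singleton])

/-- A multiplier group containing the range of a two-to-one additive map is everything. -/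
theorem Mu_eq_top (h2 : (2 : F) = 0) (hq : 8 ≤ Fintype.card F) {E : AddSubgroup F} (f : F →+ F)
    (hf : ∀ c, f c ∈ Mu E) {a : F} (hker : ∀ c, f c = 0 → c = 0 ∨ c = a) : Mu E = ⊤ := by
  classical
  have hcF : Nat.card F = Fintype.card F := Nat.card_eq_fintype_card
  -- the kernel has at most two elements
  have hk : Nat.card f.ker ≤ 2 := by
    have e : Nat.card f.ker = ((f.ker : AddSubgroup F) : Set F).ncard := by
      rw [← Nat.card_coe_set_eq]
      rfl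
    rw [e]
    have h3 : ((f.ker : AddSubgroup F) : Set F) ⊆ {0, a} := by
      intro c hc
      have hc' : f c = 0 := by simpa [AddMonoidHom.mem_ker] using hc
      rcases hker c hc' with h4 | h4
      · exact Or.inl h4
      · exact Or.inr h4
    calc ((f.ker : AddSubgroup F) : Set F).ncard ≤ ({0, a} : Set F).ncard :=
          Set.ncard_le_ncard h3 (Set.toFinite _)
      _ ≤ 2 := ncard_pair_le' _ _
  have h3 : Nat.card f.ker * Nat.card f.range = Fintype.card F := by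
    rw [← AddSubgroup.index_ker, AddSubgroup.card_mul_index, hcF]
  have hr : f.range ≤ Mu E := by
    rintro _ ⟨c, rfl⟩
    exact hf c
  have h4 : Nat.card f.range ≤ Nat.card (Mu E) := AddSubgroup.card_le_of_le hr
  have h5 : Nat.card (Mu E) * (Mu E).index = Fintype.card F := by
    rw [AddSubgroup.card_mul_index, hcF]
  have hpos : 0 < Nat.card (Mu E) := Nat.card_pos
  have h6 : Fintype.card F ≤ 2 * Nat.card (Mu E) := by
    rw [← h3]
    exact Nat.mul_le_mul hk h4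
  have h7 : (Mu E).index ≤ 2 := by
    by_contra hc
    push Not at hc
    have : Nat.card (Mu E) * 3 ≤ Nat.card (Mu E) * (Mu E).index := Nat.mul_le_mul_left _ hc
    omega
  have h8 : (Mu E).index ≠ 0 := by
    intro hc
    rw [hc] at h5
    omega
  have h9 : (Mu E).index = 1 ∨ (Mu E).index = 2 := by omega
  rcases h9 with h9 | h9
  · exact AddSubgroup.index_eq_one.mp h9
  · exfalso
    have h10 : 4 ≤ Nat.card (Mu E) := by
      rw [h9] at h5
      omega
    -- an element `l₀` other than `0, 1`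
    obtain ⟨l₀, hl₀, hl0, hl1⟩ : ∃ l₀ ∈ Mu E, l₀ ≠ 0 ∧ l₀ ≠ 1 := by
      by_contra hcon
      push Not at hcon
      have hsub : ((Mu E : AddSubgroup F) : Set F) ⊆ {0, 1} := by
        intro c hc
        by_cases hc0 : c = 0
        · exact Or.inl hc0
        · exact Or.inr (hcon c hc hc0)
      have e : Nat.card (Mu E) = ((Mu E : AddSubgroup F) : Set F).ncard := by
        rw [← Nat.card_coe_set_eq]
        rfl
      have : ((Mu E : AddSubgroup F) : Set F).ncard ≤ 2 :=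
        (Set.ncard_le_ncard hsub (Set.toFinite _)).trans (ncard_pair_le' _ _)
      omega
    -- every element is a multiplier
    have hnot : ∃ y, y ∉ Mu E := by
      by_contra hcon
      push Not at hcon
      have : Mu E = ⊤ := eq_top_iff.mpr (fun y _ => hcon y)
      rw [this, AddSubgroup.index_top] at h9
      omega
    obtain ⟨y, hy⟩ := hnot
    have hy2 : l₀ * y ∉ Mu E := by
      intro hc
      apply hy
      have := mul_mem_Mu (inv_mem_Mu hl₀) hc
      rwa [inv_mul_cancel_left₀ hl0] at this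
    have h11 : y + l₀ * y ∈ Mu E :=
      (AddSubgroup.add_mem_iff_of_index_two h9).mpr (iff_of_false hy hy2)
    have hl2 : 1 + l₀ ≠ 0 := by
      intro hc
      apply hl1
      linear_combination hc - h2
    have h12 : (1 + l₀) ∈ Mu E := (Mu E).add_mem (one_mem_Mu E) hl₀
    apply hy
    have := mul_mem_Mu (inv_mem_Mu h12) h11
    have e : (1 + l₀)⁻¹ * (y + l₀ * y) = y := by
      field_simp
    rwa [e] at this

end Mult

variable {F : Type*} [Field F] [Fintype F] {m : ℕ} (h : Hyp F m)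
include h

theorem card_ge : 8 ≤ Fintype.card F := by
  rw [h.hF]
  have h1 := h.hm
  calc 8 = 2 ^ 3 := by norm_num
    _ ≤ 2 ^ (2 * m + 1) := Nat.pow_le_pow_right (by norm_num) (by omega)

theorem Lz_mul (a b : F) : Lg h 0 a * Lg h 0 b = Lg h 0 (a + b) := by
  rw [Lg_mul h, add_zero, zero_pow_sg h, zero_mul, add_zero]

theorem Lz_inv (a : F) : (Lg h 0 a)⁻¹ = Lg h 0 a :=
  inv_eq_of_mul_eq_one_left (Lg_zero_sq h a)

theorem D_conj_Lz (k : Fˣ) (z : F) :
    Dg h k * Lg h 0 z * (Dg h k)⁻¹ = Lg h 0 ((k : F) ^ (2 ^ (m + 1)) * k * z) := by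
  rw [Dg_conj_Lg h, mul_zero]

theorem exists_scale {u e : F} (hu : u ≠ 0) (he : e ≠ 0) :
    ∃ r : Fˣ, (r : F) ^ (2 ^ (m + 1)) * r * u = e := by
  obtain ⟨r, hr⟩ := (pow_sg_mul_self_bij h).2 (e / u)
  simp only at hr
  have hr0 : r ≠ 0 := by
    rintro rfl
    rw [zero_pow_sg h, zero_mul] at hr
    exact div_ne_zero he hu hr.symm
  refine ⟨Units.mk0 r hr0, ?_⟩
  simp only [Units.val_mk0]
  rw [hr]
  field_simp

/-- The additive subgroup of the `e` with `L(0,e) ∈ H`. -/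
def Eset (H : Subgroup (G F m)) : AddSubgroup F where
  carrier := {e | Lg h 0 e ∈ H}
  add_mem' := by
    intro a b ha hb
    have := H.mul_mem ha hb
    rwa [Lz_mul h] at this
  zero_mem' := by
    change Lg h 0 0 ∈ H
    rw [Lg_zero h]
    exact H.one_mem
  neg_mem' := by
    intro a ha
    change Lg h 0 (-a) ∈ H
    rw [h.neg_eq]
    exact ha

theorem mem_Eset {H : Subgroup (G F m)} {e : F} : e ∈ Eset h H ↔ Lg h 0 e ∈ H := Iff.rfl

variable {H : Subgroup (G F m)}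

theorem inK_scale {r : Fˣ} {u : F} {g : G F m} (he : Lg h 0 ((r : F) ^ (2 ^ (m + 1)) * r * u) ∈ H)
    (hg : g ∈ Ksub H (Lg h 0 u)) : Dg h r * g * (Dg h r)⁻¹ ∈ H := by
  have := hg (Dg h r)⁻¹ (by
    rw [inv_inv, D_conj_Lz h]
    exact he)
  rwa [inv_inv] at this

/-- `U` normalises `K(L(0,u))`. -/
theorem U_conj_Ksub {v g : G F m} {u : F} (hv : v ∈ Usub h) (hg : g ∈ Ksub H (Lg h 0 u)) :
    v * g * v⁻¹ ∈ Ksub H (Lg h 0 u) := by
  obtain ⟨c, d, rfl⟩ := hv
  exact inK_conj_of_commute hg (Lg_zero_comm h u c d).symm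

theorem Ksub_ne_top {e u : F} (he : Lg h 0 e ∈ H) (he0 : e ≠ 0) (hu : u ≠ 0) (hH : H ≠ ⊤) :
    Ksub H (Lg h 0 u) ≠ ⊤ := by
  intro hc
  apply hH
  rw [eq_top_iff]
  intro y _
  obtain ⟨r, hr⟩ := exists_scale h hu he0
  have h1 : (Dg h r)⁻¹ * y * Dg h r ∈ Ksub H (Lg h 0 u) := by
    rw [hc]
    trivial
  have h2 := inK_scale h (by rw [hr]; exact he) h1
  rwa [show Dg h r * ((Dg h r)⁻¹ * y * Dg h r) * (Dg h r)⁻¹ = y by group] at h2

theorem Ksub_le_Bor {e u : F} (he : Lg h 0 e ∈ H) (he0 : e ≠ 0) (hu : u ≠ 0) (hH : H ≠ ⊤) :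
    Ksub H (Lg h 0 u) ≤ Bor F m := by
  by_contra hnot
  set A := Ksub H (Lg h 0 u) with hA
  have htop := eq_top_of_U_not_Bor h (A ⊔ Usub h) le_sup_right
    (fun hle => hnot (le_sup_left.trans hle))
  have hUN : Usub h ≤ Subgroup.normalizer (A : Set (G F m)) := by
    intro v hv
    rw [Subgroup.mem_normalizer_iff]
    intro g
    constructor
    · intro hg
      exact U_conj_Ksub h hv hg
    · intro hg
      have := U_conj_Ksub h ((Usub h).inv_mem hv) hg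
      simpa [mul_assoc] using this
  have hnorm : A ⊔ Usub h ≤ Subgroup.normalizer (A : Set (G F m)) :=
    sup_le Subgroup.le_normalizer hUN
  rw [htop, top_le_iff] at hnorm
  haveI : A.Normal := Subgroup.normalizer_eq_top_iff.mp hnorm
  haveI := isSimple h
  rcases IsSimpleGroup.eq_bot_or_eq_top_of_normal A inferInstance with hb | ht
  · have h1 : Lg h 0 u ∈ A := self_mem_Ksub H _
    rw [hb, Subgroup.mem_bot] at h1
    exact Lg_ne_one h (Or.inr hu) h1
  · exact Ksub_ne_top h he he0 hu hH ht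

/-- If `Z` is not in `H` then `K(L(0,u)) ≤ U`. -/
theorem Ksub_le_U (hZ : ¬ Zsub h ≤ H) {e u : F} (he : Lg h 0 e ∈ H) (he0 : e ≠ 0) (hu : u ≠ 0)
    (hH : H ≠ ⊤) : Ksub H (Lg h 0 u) ≤ Usub h := by
  intro g hg
  have hgB := Ksub_le_Bor h he he0 hu hH hg
  obtain ⟨a, b, k, rfl⟩ := stab_oI h g (MulAction.mem_stabilizer_iff.mp hgB)
  by_cases hk : k = 1
  · subst hk
    rw [Dg_one h, mul_one]
    exact ⟨a, b, rfl⟩
  · exfalso
    apply hZ
    rintro _ ⟨e₂, rfl⟩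
    obtain ⟨r, hr⟩ := exists_scale h hu he0
    set K := (k : F) ^ (2 ^ (m + 1)) * k with hK
    have hK1 : K + 1 ≠ 0 := by
      intro hc
      apply hk
      apply Units.ext
      simpa using pow_sg_mul_self_eq_one h (h.eq_of_add_eq_zero hc)
    have hr0 : (r : F) ^ (2 ^ (m + 1)) * r ≠ 0 := mul_ne_zero (pow_ne_zero _ r.ne_zero) r.ne_zero
    set R := (r : F) ^ (2 ^ (m + 1)) * r with hR
    set z := e₂ / (R * (K + 1)) with hzdef
    have h1 := U_conj_Ksub h (v := Lg h 0 z) ⟨0, z, rfl⟩ hg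
    have h2 := (Ksub H (Lg h 0 u)).inv_mem hg
    have h3 := (Ksub H (Lg h 0 u)).mul_mem h1 h2
    have e3 : Lg h 0 z * (Lg h a b * Dg h k) * (Lg h 0 z)⁻¹ * (Lg h a b * Dg h k)⁻¹ =
        Lg h 0 (z + K * z) := by
      have e4 : (Lg h a b * Dg h k) * Lg h 0 z * (Lg h a b * Dg h k)⁻¹ = Lg h 0 (K * z) := by
        rw [conj_Bor_Lg h, mul_zero, zero_pow_sg h, zero_mul, mul_zero, add_zero, add_zero]
      have e5 : Lg h 0 z * (Lg h a b * Dg h k) * (Lg h 0 z)⁻¹ * (Lg h a b * Dg h k)⁻¹ =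
          Lg h 0 z * ((Lg h a b * Dg h k) * Lg h 0 z * (Lg h a b * Dg h k)⁻¹) := by
        rw [Lz_inv h]
        group
      rw [e5, e4, Lz_mul h]
    rw [e3] at h3
    have h4 := inK_scale h (r := r) (by rw [hr]; exact he) h3
    rw [D_conj_Lz h] at h4
    have e5 : (r : F) ^ (2 ^ (m + 1)) * r * (z + K * z) = e₂ := by
      rw [← hR, hzdef]
      field_simp
      ring
    rwa [e5] at h4

theorem mem_Mu_of_inK {u w : F} (hu : u ≠ 0) (hg : Lg h 0 w ∈ Ksub H (Lg h 0 u)) :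
    w / u ∈ Mu (Eset h H) := by
  intro e he
  by_cases he0 : e = 0
  · subst he0
    rw [mul_zero]
    exact (Eset h H).zero_mem
  obtain ⟨r, hr⟩ := exists_scale h hu he0
  have h1 := inK_scale h (r := r) (by rw [hr]; exact he) hg
  rw [D_conj_Lz h] at h1
  rw [mem_Eset]
  have e' : w / u * e = (r : F) ^ (2 ^ (m + 1)) * r * w := by
    rw [← hr]
    field_simp
  rw [e']
  exact h1

/-- First step: `H` contains `Z`. -/
theorem Z_le (hC : Crit H) (hH : H ≠ ⊤) {e₀ : F} (he₀0 : e₀ ≠ 0) (he₀ : Lg h 0 e₀ ∈ H) : Zsub h ≤ H := by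
  by_contra hZ
  obtain ⟨e₁, he₁⟩ : ∃ e₁, Lg h 0 e₁ ∉ H := by
    rw [SetLike.not_le_iff_exists] at hZ
    obtain ⟨y, ⟨e₁, rfl⟩, hy⟩ := hZ
    exact ⟨e₁, hy⟩
  have he₁E : e₁ ∉ Eset h H := he₁
  have he₀E : e₀ ∈ Eset h H := he₀
  have he₁0 : e₁ ≠ 0 := by
    rintro rfl
    exact he₁E (Eset h H).zero_mem
  have hs0 : e₁ + e₀ ≠ 0 := by
    intro hc
    have e := h.eq_of_add_eq_zero hc
    exact he₁E (e ▸ he₀E)
  obtain ⟨g, hg1, hg2⟩ := hC (Lg h 0 e₁)
  have k1 : g ∈ Ksub H (Lg h 0 e₁) := hg2 _ (by simp [H.one_mem])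
  have k2 : g ∈ Ksub H (Lg h 0 (e₁ + e₀)) := hg2 _ (by
    rw [Lz_inv h, Lz_mul h, ← add_assoc, h.add_self, zero_add]
    exact he₀)
  obtain ⟨a, b, rfl⟩ := Ksub_le_U h hZ he₀ he₀0 he₁0 hH k1
  by_cases ha : a = 0
  · subst ha
    have hb0 : b ≠ 0 := by
      rintro rfl
      rw [Lg_zero h, mul_one, inv_mem_iff] at hg1
      exact he₁ hg1
    exact mult_contra h.two_eq_zero he₀E he₀0 he₁E hb0 (mem_Mu_of_inK h he₁0 k1) (mem_Mu_of_inK h hs0 k2)
  · let ψ : F →+ F := AddMonoidHom.mk' (fun c => (c ^ (2 ^ (m + 1)) * a + a ^ (2 ^ (m + 1)) * c) / e₁) (by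
      intro x y
      change ((x + y) ^ (2 ^ (m + 1)) * a + a ^ (2 ^ (m + 1)) * (x + y)) / e₁ =
        (x ^ (2 ^ (m + 1)) * a + a ^ (2 ^ (m + 1)) * x) / e₁ + (y ^ (2 ^ (m + 1)) * a + a ^ (2 ^ (m + 1)) * y) / e₁
      rw [h.add_pow_sg]
      ring)
    have hψ : ∀ c, ψ c ∈ Mu (Eset h H) := by
      intro c
      have h1 := U_conj_Ksub h (v := Lg h c 0) ⟨c, 0, rfl⟩ k1
      have h2 := (Ksub H (Lg h 0 e₁)).inv_mem k1
      have h3 := (Ksub H (Lg h 0 e₁)).mul_mem h1 h2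
      rw [Lg_commutator h] at h3
      exact mem_Mu_of_inK h he₁0 h3
    have hker : ∀ c, ψ c = 0 → c = 0 ∨ c = a := by
      intro c hc
      have h1 : c ^ (2 ^ (m + 1)) * a + a ^ (2 ^ (m + 1)) * c = 0 := by
        have h2 : (c ^ (2 ^ (m + 1)) * a + a ^ (2 ^ (m + 1)) * c) / e₁ = 0 := hc
        rcases div_eq_zero_iff.mp h2 with h3 | h3
        · exact h3
        · exact absurd h3 he₁0
      have h2 := h.eq_of_add_eq_zero h1
      have h3 : (c / a) ^ (2 ^ (m + 1)) = c / a := by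
        rw [div_pow]
        have hap : a ^ (2 ^ (m + 1)) ≠ 0 := pow_ne_zero _ ha
        field_simp
        linear_combination h2
      rcases h.fixed_of_pow_sg h3 with h4 | h4
      · left
        rcases div_eq_zero_iff.mp h4 with h5 | h5
        · exact h5
        · exact absurd h5 ha
      · right
        field_simp at h4
        exact h4
    have hMu := Mu_eq_top h.two_eq_zero (card_ge h) ψ hψ hker
    have h1 : e₁ / e₀ ∈ Mu (Eset h H) := by
      rw [hMu]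
      trivial
    have h2 := h1 e₀ he₀E
    rw [div_mul_cancel₀ _ he₀0] at h2
    exact he₁E h2

/-- Second step: a proper subgroup containing `Z` is in the Borel subgroup. -/
theorem le_Bor (hZ : Zsub h ≤ H) (hH : H ≠ ⊤) : H ≤ Bor F m := by
  have hm := h.hm
  rcases classify h H hH with ⟨P, hP⟩ | ⟨X, hc, hcard, hle⟩ | ⟨K, _, _, k, hk1, hkm, hKc, hdvd, S, ⟨e⟩, hS⟩
  · obtain ⟨x, hx⟩ := exists_conj h P
    have hfix : ∀ t ∈ H, t • (x • (oI : Om F m)) = x • oI := by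
      intro t ht
      have h1 := hP ht
      rw [Subgroup.mem_normalizer_iff] at h1
      have h2 := (h1 (x * Lg h 1 0 * x⁻¹)).mp (by
        rw [hx]
        exact ⟨Lg h 1 0, ⟨1, 0, rfl⟩, rfl⟩)
      rw [hx] at h2
      obtain ⟨u, ⟨a', b', rfl⟩, hu⟩ := h2
      have h3 : (x⁻¹ * t * x) * Lg h 1 0 * (x⁻¹ * t * x)⁻¹ = Lg h a' b' := by
        have hu' : x * Lg h a' b' * x⁻¹ = t * (x * Lg h 1 0 * x⁻¹) * t⁻¹ := hu
        have e1 : Lg h a' b' = x⁻¹ * (x * Lg h a' b' * x⁻¹) * x := by group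
        rw [e1, hu']
        group
      have h4 := mem_Bor_of_conj h (Or.inl one_ne_zero) h3
      have h5 := MulAction.mem_stabilizer_iff.mp h4
      rw [mul_smul, mul_smul, inv_smul_eq_iff] at h5
      exact h5
    have h1 : x • (oI : Om F m) = oI :=
      Lg_fix_eq h (a := 0) (b := 1) (Or.inr one_ne_zero) (hfix _ (hZ ⟨1, rfl⟩))
    intro t ht
    rw [MulAction.mem_stabilizer_iff]
    have := hfix t ht
    rwa [h1] at this
  · exfalso
    have h1 := card_two_le h hc hcard (T := Zsub h) (by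
      rintro _ ⟨b, rfl⟩
      exact (Z_sq h ⟨b, rfl⟩ : _) ▸ (by
        have e4 : ∀ x : G F m, x ^ 4 = (x * x) * (x * x) := fun x => by
          rw [pow_succ, pow_succ, pow_succ, pow_one, mul_assoc, mul_assoc]
        rw [e4, Z_sq h ⟨b, rfl⟩, one_mul])) (hZ.trans hle)
    rw [card_Zsub h] at h1
    have h2 := card_ge h
    omega
  · exfalso
    have hK : Hyp K k := ⟨hk1, hKc⟩
    have h1 := card_two_le_S h hK e (T := Zsub h) (hZ.trans hS) (by
      rw [card_Zsub h, h.hF]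
      exact dvd_pow_self _ (by norm_num))
    rw [card_Zsub h, h.hF, ← pow_mul] at h1
    have h2 : 2 * m + 1 ≤ (2 * k + 1) * 2 := (Nat.pow_le_pow_iff_right (by norm_num)).mp h1
    obtain ⟨c, hc⟩ := hdvd
    have hc0 : c ≠ 0 := by
      rintro rfl
      omega
    have hc1 : c ≠ 1 := by
      rintro rfl
      omega
    have hc2 : c ≠ 2 := by
      rintro rfl
      omega
    have hc3 : 3 ≤ c := by omega
    have : (2 * k + 1) * 3 ≤ (2 * k + 1) * c := Nat.mul_le_mul_left _ hc3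
    omega

/-- `L(a,b) D(k)` is a conjugate of `D(k)` by an element of `U`. -/
theorem conj_LD (a b : F) {k : Fˣ} (hk : k ≠ 1) :
    ∃ c d : F, Lg h a b * Dg h k = Lg h c d * Dg h k * (Lg h c d)⁻¹ := by
  obtain ⟨x, y, hxy⟩ := LgDg_fix h a b hk
  set g := Lg h a b * Dg h k with hg
  have hu0 : Lg h x y • (oA 0 0 : Om F m) = oA x y := by
    rw [Lg_oA h]
    simp
  have hgI : g • (oI : Om F m) = oI := by
    rw [hg, mul_smul, Dg_oI h, Lg_oI h]
  obtain ⟨k', hk'⟩ := eq_Dg_of_fix h ((Lg h x y)⁻¹ * g * Lg h x y)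
    (by rw [mul_smul, mul_smul, Lg_oI h, hgI, inv_smul_eq_iff, Lg_oI h])
    (by rw [mul_smul, mul_smul, hu0, hxy, inv_smul_eq_iff, hu0])
  have e : g = Lg h x y * Dg h k' * (Lg h x y)⁻¹ := by
    rw [← hk']
    group
  have e2 : Lg h x y * Dg h k' * (Lg h x y)⁻¹ =
      (Lg h x y * (Dg h k' * (Lg h x y)⁻¹ * (Dg h k')⁻¹)) * Dg h k' := by group
  obtain ⟨c', d', e21⟩ : ∃ c' d', Lg h x y * (Dg h k' * (Lg h x y)⁻¹ * (Dg h k')⁻¹) = Lg h c' d' := by
    rw [Lg_inv h, Dg_conj_Lg h, Lg_mul h]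
    exact ⟨_, _, rfl⟩
  rw [e21] at e2
  have e3 := Lg_Dg_inj h (hg.symm.trans (e.trans e2))
  rw [← e3.2.2] at e
  exact ⟨x, y, e⟩

/-- Third step: `Z ≤ H ≤ B` and `D(k) ∈ H`, `k ≠ 1`, force `U ≤ H`. -/
theorem U_le_of_D (hC : Crit H) (hZ : Zsub h ≤ H) (hB : H ≤ Bor F m) {k : Fˣ} (hk : k ≠ 1)
    (hD : Dg h k ∈ H) : Usub h ≤ H := by
  rintro _ ⟨c₁, c₂, rfl⟩
  obtain ⟨g, hg1, hg2⟩ := hC (Lg h c₁ c₂)
  have hK : ∀ g', g' ∈ Ksub H (Dg h k) → g' • (oI : Om F m) = oI ∧ g' • (oA 0 0 : Om F m) = oA 0 0 := by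
    intro g' hg'
    constructor
    · have h1 := hg' 1 (by simpa using hD)
      have h2 : g' ∈ H := by simpa using h1
      exact MulAction.mem_stabilizer_iff.mp (hB h2)
    · have h1 := hg' (Tg h) (by
        rw [Tg_inv h]
        have e := Tg_conj_Dg h k
        rw [Tg_inv h] at e
        rw [e]
        exact H.inv_mem hD)
      have h2 := MulAction.mem_stabilizer_iff.mp (hB h1)
      rw [mul_smul, mul_smul, Tg_oI h, Tg_inv h, ← Tg_oA_zero h, smul_left_cancel_iff] at h2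
      exact h2
  obtain ⟨x₁, y₁, e₁⟩ := conj_LD h c₁ c₂ hk
  obtain ⟨x₂, y₂, e₂⟩ := conj_LD h c₁ (c₂ + 1) hk
  have ks₁ : g ∈ Ksub H (Lg h c₁ c₂ * Dg h k) := hg2 _ (by
    rw [inv_mul_cancel_left]
    exact hD)
  have ks₂ : g ∈ Ksub H (Lg h c₁ (c₂ + 1) * Dg h k) := hg2 _ (by
    have e : Lg h c₁ (c₂ + 1) = Lg h c₁ c₂ * Lg h 0 1 := by
      rw [Lg_mul h, add_zero, mul_zero, add_zero]
    rw [e, mul_assoc, inv_mul_cancel_left]
    exact H.mul_mem (hZ ⟨1, rfl⟩) hD)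
  have a₁ := hK _ (inK_conj (a := Lg h x₁ y₁) (s := Dg h k) (by rw [← e₁]; exact ks₁))
  have a₂ := hK _ (inK_conj (a := Lg h x₂ y₂) (s := Dg h k) (by rw [← e₂]; exact ks₂))
  have fixI : g • (oI : Om F m) = oI := by
    have := a₁.1
    rw [mul_smul, mul_smul, Lg_oI h, inv_smul_eq_iff, Lg_oI h] at this
    exact this
  have hu0 : ∀ x y : F, Lg h x y • (oA 0 0 : Om F m) = oA x y := by
    intro x y
    rw [Lg_oA h]
    simp
  have fix₁ : g • (oA x₁ y₁ : Om F m) = oA x₁ y₁ := by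
    have := a₁.2
    rw [mul_smul, mul_smul, hu0, inv_smul_eq_iff, hu0] at this
    exact this
  have fix₂ : g • (oA x₂ y₂ : Om F m) = oA x₂ y₂ := by
    have := a₂.2
    rw [mul_smul, mul_smul, hu0, inv_smul_eq_iff, hu0] at this
    exact this
  have hne : (oA x₁ y₁ : Om F m) ≠ oA x₂ y₂ := by
    intro hc
    obtain ⟨e3, e4⟩ := oA_inj hc
    subst e3 e4
    have e5 := Lg_Dg_inj h (e₁.trans e₂.symm)
    have e6 := e5.2.1
    have : (1 : F) = 0 := by linear_combination -e6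
    exact one_ne_zero this
  have hg1' := eq_one_of_fix_three h g (oA_ne_oI x₁ y₁).symm hne (oA_ne_oI x₂ y₂).symm fixI fix₁ fix₂
  subst hg1'
  rw [mul_one] at hg1
  exact inv_mem_iff.mp hg1

/-- Square roots of units. -/
theorem exists_sqrt_unit (κ : Fˣ) : ∃ ν : Fˣ, ν * ν = κ := by
  have hinj : Function.Injective (fun t : F => t ^ 2) := fun s t e => h.sq_inj e
  obtain ⟨ν, hν⟩ := (Finite.injective_iff_surjective.mp hinj) (κ : F)
  simp only at hν
  have hν0 : ν ≠ 0 := by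
    rintro rfl
    have : (κ : F) = 0 := by
      rw [← hν]
      simp
    exact κ.ne_zero this
  refine ⟨Units.mk0 ν hν0, Units.ext ?_⟩
  simp only [Units.val_mul, Units.val_mk0]
  rw [← hν, pow_two]

/-- Fourth step: `U ≤ H ≤ B` is impossible. -/
theorem no_U (hC : Crit H) (hU : Usub h ≤ H) (hB : H ≤ Bor F m) : False := by
  obtain ⟨g, hg1, hg2⟩ := hC (Tg h)
  have hu0 : ∀ x y : F, Lg h x y • (oA 0 0 : Om F m) = oA x y := by
    intro x y
    rw [Lg_oA h]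
    simp
  have key : ∀ x₀ y₀ : F, x₀ ≠ 0 → ∃ ν : Fˣ,
      g • (Dg h ν • (oA x₀ y₀ : Om F m)) = Dg h ν • (oA x₀ y₀ : Om F m) := by
    intro x₀ y₀ hx₀
    set x := Lg h x₀ y₀ * Tg h with hxdef
    have hxI : x • (oI : Om F m) = oA x₀ y₀ := by
      rw [hxdef, mul_smul, Tg_oI h, hu0]
    have hw₁ : x⁻¹ • (oI : Om F m) ≠ oI := by
      intro hc
      rw [inv_smul_eq_iff, hxI] at hc
      exact oA_ne_oI _ _ hc.symm
    have hw₂ : x⁻¹ • (oA 0 0 : Om F m) ≠ oI := by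
      intro hc
      rw [inv_smul_eq_iff, hxI] at hc
      exact hx₀ (oA_inj hc).1.symm
    obtain ⟨p₁, q₁, e₁⟩ := (om_cases (x⁻¹ • (oI : Om F m))).resolve_left hw₁
    obtain ⟨p₂, q₂, e₂⟩ := (om_cases (x⁻¹ • (oA 0 0 : Om F m))).resolve_left hw₂
    set u := Lg h p₂ q₂ * (Lg h p₁ q₁)⁻¹ with hu
    have huU : u ∈ H := hU ((Usub h).mul_mem ⟨_, _, rfl⟩ ((Usub h).inv_mem ⟨_, _, rfl⟩))
    have huw : u • (oA p₁ q₁ : Om F m) = oA p₂ q₂ := by
      rw [hu, mul_smul, ← hu0 p₁ q₁, inv_smul_smul, hu0]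
    set s := x * u * x⁻¹ with hs
    have hsI : s • (oI : Om F m) = oA 0 0 := by
      rw [hs, mul_smul, mul_smul, e₁, huw, ← e₂, smul_inv_smul]
    obtain ⟨a, b, κ, hκ⟩ := stab_oI h (Tg h * s) (by rw [mul_smul, hsI, Tg_oA_zero h])
    obtain ⟨ν, hν⟩ := exists_sqrt_unit h κ
    refine ⟨ν, ?_⟩
    have hmem : (Tg h)⁻¹ * (Dg h ν * s * (Dg h ν)⁻¹) ∈ H := by
      rw [Tg_inv h]
      have e1 : Tg h * (Dg h ν * s * (Dg h ν)⁻¹) = (Tg h * Dg h ν) * s * (Dg h ν)⁻¹ := by group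
      rw [e1, Tg_mul_Dg h]
      have e2 : Dg h ν⁻¹ * Tg h * s * (Dg h ν)⁻¹ = Dg h ν⁻¹ * (Tg h * s) * (Dg h ν)⁻¹ := by group
      rw [e2, hκ, Dg_inv h]
      have e3 : Dg h ν⁻¹ * (Lg h a b * Dg h κ) * Dg h ν⁻¹ =
          (Dg h ν⁻¹ * Lg h a b * (Dg h ν⁻¹)⁻¹) * (Dg h ν⁻¹ * Dg h κ * Dg h ν⁻¹) := by group
      rw [e3, Dg_conj_Lg h, Dg_mul h, Dg_mul h, ← hν]
      have e4 : ν⁻¹ * (ν * ν) * ν⁻¹ = 1 := by group
      rw [e4, Dg_one h, mul_one]
      exact hU ⟨_, _, rfl⟩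
    have h1 := hg2 _ hmem (Dg h ν * x) (by
      have e : (Dg h ν * x)⁻¹ * (Dg h ν * s * (Dg h ν)⁻¹) * (Dg h ν * x) = u := by
        rw [hs]
        group
      rw [e]
      exact huU)
    have h2 := MulAction.mem_stabilizer_iff.mp (hB h1)
    rw [mul_smul, mul_smul, inv_smul_eq_iff, mul_smul, hxI] at h2
    exact h2
  obtain ⟨t, ht0, ht1⟩ := exists_ne_zero_one h
  obtain ⟨ν₀, f₀⟩ := key 1 0 one_ne_zero
  obtain ⟨ν₁, f₁⟩ := key 1 1 one_ne_zero
  obtain ⟨ν₂, f₂⟩ := key 1 t one_ne_zero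
  rw [Dg_oA h] at f₀ f₁ f₂
  have hσ : ∀ ν : Fˣ, (ν : F) ^ (2 ^ (m + 1)) * ν ≠ 0 := fun ν =>
    mul_ne_zero (pow_ne_zero _ ν.ne_zero) ν.ne_zero
  have hg3 := eq_one_of_fix_three h g
    (w₁ := oA _ _) (w₂ := oA _ _) (w₃ := oA _ _)
    (by
      intro hc
      obtain ⟨e1, e2⟩ := oA_inj hc
      rw [mul_zero, mul_one] at e2
      have e3 : ν₀ = ν₁ := Units.ext (by simpa using e1)
      exact hσ ν₁ e2.symm)
    (by
      intro hc
      obtain ⟨e1, e2⟩ := oA_inj hc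
      rw [mul_one] at e2
      have e3 : ν₁ = ν₂ := Units.ext (by simpa using e1)
      subst e3
      have : (1 : F) = t := by
        apply mul_left_cancel₀ (hσ ν₁)
        rw [mul_one]
        exact e2
      exact ht1 this.symm)
    (by
      intro hc
      obtain ⟨e1, e2⟩ := oA_inj hc
      rw [mul_zero] at e2
      have e3 : ν₀ = ν₂ := Units.ext (by simpa using e1)
      subst e3
      have : t = 0 := by
        rcases mul_eq_zero.mp e2.symm with h4 | h4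
        · exact absurd h4 (hσ _)
        · exact h4
      exact ht0 this)
    f₀ f₁ f₂
  subst hg3
  rw [mul_one, inv_mem_iff] at hg1
  have h5 := MulAction.mem_stabilizer_iff.mp (hB hg1)
  rw [Tg_oI h] at h5
  exact oA_ne_oI _ _ h5

/-- Fifth step: `Z ≤ H ≤ U` and `L(a₀,b₀) ∈ H` with `a₀ ≠ 0` is impossible. -/
theorem no_large (hC : Crit H) (hZ : Zsub h ≤ H) (hU : H ≤ Usub h) {a₀ b₀ : F} (ha₀ : a₀ ≠ 0)
    (hm : Lg h a₀ b₀ ∈ H) : False := by
  let A₀ : AddSubgroup F :=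
    { carrier := {a | ∃ b, Lg h a b ∈ H}
      add_mem' := by
        rintro a c ⟨b, hb⟩ ⟨d, hd⟩
        have := H.mul_mem hb hd
        rw [Lg_mul h] at this
        exact ⟨_, this⟩
      zero_mem' := ⟨0, by rw [Lg_zero h]; exact H.one_mem⟩
      neg_mem' := by
        rintro a ⟨b, hb⟩
        have := H.inv_mem hb
        rw [Lg_inv h] at this
        change ∃ b, Lg h (-a) b ∈ H
        rw [h.neg_eq]
        exact ⟨_, this⟩ }
  have hex : ∃ e₁, e₁ ∉ A₀ := by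
    by_contra hcon
    push Not at hcon
    refine no_U h hC ?_ (hU.trans (Usub_le_Bor h))
    rintro _ ⟨a, b, rfl⟩
    obtain ⟨b', hb'⟩ := hcon a
    have e : Lg h a b = Lg h a b' * Lg h 0 (b + b') := by
      rw [Lg_mul h, add_zero, mul_zero, add_zero]
      congr 1
      have := h.add_self b'
      linear_combination -this
    rw [e]
    exact H.mul_mem hb' (hZ ⟨_, rfl⟩)
  obtain ⟨e₁, he₁⟩ := hex
  have he₁0 : e₁ ≠ 0 := by
    rintro rfl
    exact he₁ A₀.zero_mem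
  have hs0 : e₁ + a₀ ≠ 0 := by
    intro hc
    have e := h.eq_of_add_eq_zero hc
    exact he₁ (e ▸ ⟨b₀, hm⟩)
  obtain ⟨g, hg1, hg2⟩ := hC (Lg h e₁ 0)
  have hgU : g ∈ Usub h := by
    have h1 := (Usub h).mul_mem (⟨e₁, 0, rfl⟩ : Lg h e₁ 0 ∈ Usub h) (hU hg1)
    rwa [mul_inv_cancel_left] at h1
  obtain ⟨z, w, rfl⟩ := hgU
  have hz : z ≠ 0 := by
    rintro rfl
    apply he₁
    have h1 := H.mul_mem (hZ ⟨w, rfl⟩) (H.inv_mem hg1)
    have e : Lg h 0 w * ((Lg h e₁ 0)⁻¹ * Lg h 0 w)⁻¹ = Lg h e₁ 0 := by group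
    rw [e] at h1
    exact ⟨0, h1⟩
  have key : ∀ u d : F, u ≠ 0 → (Lg h e₁ 0)⁻¹ * Lg h u d ∈ H → z / u ∈ Mu A₀ := by
    intro u d hu hs e he
    by_cases he0 : e = 0
    · subst he0
      rw [mul_zero]
      exact A₀.zero_mem
    obtain ⟨f, hf⟩ := he
    have hr0 : e / u ≠ 0 := div_ne_zero he0 hu
    let r : Fˣ := Units.mk0 (e / u) hr0
    have hrv : (r : F) = e / u := rfl
    have h1 := hg2 _ hs (Dg h r)⁻¹ (by
      rw [inv_inv, Dg_conj_Lg h]
      have e2 : (r : F) * u = e := by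
        rw [hrv]
        field_simp
      rw [e2]
      set f' := (r : F) ^ (2 ^ (m + 1)) * r * d
      have e3 : Lg h e f' = Lg h e f * Lg h 0 (f' + f) := by
        rw [Lg_mul h, add_zero, mul_zero, add_zero]
        congr 1
        have := h.add_self f
        linear_combination -this
      rw [e3]
      exact H.mul_mem hf (hZ ⟨_, rfl⟩))
    rw [inv_inv, Dg_conj_Lg h] at h1
    have e2 : z / u * e = (r : F) * z := by
      rw [hrv]
      field_simp
    rw [e2]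
    exact ⟨_, h1⟩
  have hu1 := key e₁ 0 he₁0 (by
    rw [inv_mul_cancel]
    exact H.one_mem)
  have hu2 := key (e₁ + a₀) (0 + b₀ + e₁ ^ (2 ^ (m + 1)) * a₀) hs0 (by
    rw [← Lg_mul h, inv_mul_cancel_left]
    exact hm)
  exact mult_contra h.two_eq_zero (E := A₀) ⟨b₀, hm⟩ ha₀ he₁ hz hu1 hu2

/-- The standard form of the even case. -/
theorem even_std (hC : Crit H) (hH : H ≠ ⊤) {e₀ : F} (he₀0 : e₀ ≠ 0) (he₀ : Lg h 0 e₀ ∈ H) :
    H = Zsub h := by
  have hZ := Z_le h hC hH he₀0 he₀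
  have hB := le_Bor h hZ hH
  have hU : H ≤ Usub h := by
    intro y hy
    obtain ⟨a, b, k, rfl⟩ := stab_oI h y (MulAction.mem_stabilizer_iff.mp (hB hy))
    by_cases hk : k = 1
    · subst hk
      rw [Dg_one h, mul_one]
      exact ⟨a, b, rfl⟩
    · exfalso
      obtain ⟨c, d, e⟩ := conj_LD h a b hk
      rw [e] at hy
      have hvB : Lg h c d ∈ Bor F m := Usub_le_Bor h ⟨c, d, rfl⟩
      have hC' := Crit.conj hC (Lg h c d)⁻¹
      have hZ' : Zsub h ≤ cj (Lg h c d)⁻¹ H := by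
        intro y hy'
        rw [mem_cj, inv_inv]
        exact hZ (conj_Z_of_Bor h hvB hy')
      have hB' : cj (Lg h c d)⁻¹ H ≤ Bor F m := by
        intro y hy'
        rw [mem_cj, inv_inv] at hy'
        have h1 := hB hy'
        have h2 := (Bor F m).mul_mem ((Bor F m).mul_mem ((Bor F m).inv_mem hvB) h1) hvB
        rwa [show (Lg h c d)⁻¹ * (Lg h c d * y * (Lg h c d)⁻¹) * Lg h c d = y by group] at h2
      have hD : Dg h k ∈ cj (Lg h c d)⁻¹ H := by
        rw [mem_cj, inv_inv]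
        exact hy
      exact no_U h hC' (U_le_of_D h hC' hZ' hB' hk hD) hB'
  apply le_antisymm
  · intro y hy
    obtain ⟨a, b, rfl⟩ := hU hy
    by_cases ha : a = 0
    · subst ha
      exact ⟨b, rfl⟩
    · exact (no_large h hC hZ hU ha hy).elim
  · exact hZ

/-- The even case. -/
theorem even_case (hC : Crit H) (hH : H ≠ ⊤) (hev : 2 ∣ Nat.card H) : ∃ x, H = cj x (Zsub h) := by
  have : Fact (Nat.Prime 2) := ⟨Nat.prime_two⟩
  have : Finite (G F m) := finite_G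
  obtain ⟨z, hz⟩ := exists_prime_orderOf_dvd_card' 2 hev
  have hzo : orderOf (z : G F m) = 2 := by
    rw [Subgroup.orderOf_coe]
    exact hz
  have hinv : IsInv (z : G F m) := by
    refine ⟨?_, ?_⟩
    · intro hc
      rw [hc, orderOf_one] at hzo
      exact absurd hzo (by norm_num)
    · rw [← pow_two, ← hzo, pow_orderOf_eq_one]
  obtain ⟨w, hw⟩ := inv_exists h hinv
  obtain ⟨x, hx⟩ := exists_mv h w
  have hzU : (z : G F m) ∈ Uw h w := by
    rw [mem_Uw h]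
    exact ⟨hw, hinv.pow_four⟩
  rw [Uw_eq h hx] at hzU
  obtain ⟨u, ⟨a, b, rfl⟩, hu⟩ := hzU
  have hu' : x * Lg h a b * x⁻¹ = (z : G F m) := hu
  have hLL : Lg h a b * Lg h a b = 1 := by
    have h1 : (x * Lg h a b * x⁻¹) * (x * Lg h a b * x⁻¹) = 1 := by
      rw [hu']
      exact hinv.2
    have e : Lg h a b * Lg h a b = x⁻¹ * ((x * Lg h a b * x⁻¹) * (x * Lg h a b * x⁻¹)) * x := by group
    rw [e, h1]
    group
  rw [Lg_sq h] at hLL
  have ha : a = 0 := by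
    by_contra ha
    exact Lg_ne_one h (Or.inr (mul_ne_zero (pow_ne_zero _ ha) ha)) hLL
  subst ha
  have hb : b ≠ 0 := by
    rintro rfl
    apply hinv.1
    rw [← hu', Lg_zero h]
    group
  have hC' := Crit.conj hC x⁻¹
  have hH' : cj x⁻¹ H ≠ ⊤ := cj_ne_top hH
  have hmem : Lg h 0 b ∈ cj x⁻¹ H := by
    rw [mem_cj, inv_inv, hu']
    exact z.2
  have he := even_std h hC' hH' hb hmem
  refine ⟨x, ?_⟩
  have e2 := cj_inv_cj x⁻¹ H
  rw [inv_inv, he] at e2
  exact e2.symm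

end Cfsg.Agent.Lib.BinSz.Even
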