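import Cfsg.Agent.Lib.BinSz.Odd

/-! Binary coset actions of the matrix Suzuki group. -/

set_option autoImplicit false
set_option linter.unusedSectionVars false
set_option linter.deprecated false
set_option linter.unusedSimpArgs false
set_option linter.style.longLine false
set_option linter.style.haveILetI false
set_option linter.unusedVariables false

namespace Cfsg.Agent.Lib.BinSz.Main

open Cfsg.Agent.Lib.Suzuki.Basic Cfsg.Agent.Lib.Suzuki.Group Cfsg.Agent.Lib.Suzuki.Struct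
  Cfsg.Agent.Lib.Suzuki.Order Cfsg.Agent.Lib.Suzuki.Zass Cfsg.Agent.Lib.Suzuki.Sub
  Cfsg.Agent.Lib.Suzuki.Syl Cfsg.Agent.Lib.Suzuki.Gen Cfsg.Agent.Lib.Suzuki.Fix
  Cfsg.Agent.Lib.Suzuki.Iso
  Cfsg.Agent.Lib.Binary.Core Cfsg.Agent.Lib.BinSz.Basic Cfsg.Agent.Lib.BinSz.Odd

section transfer

variable {G₁ G₂ : Type*} [Group G₁] [Group G₂]

theorem bin_of_comap (e : G₁ ≃* G₂) {H : Subgroup G₂} (hB : Bin (H.comap e.toMonoidHom)) : Bin H := by
  intro n I J hn hp
  have key : ∀ p : G₂ ⧸ H, ∃ x : G₂, p = QuotientGroup.mk x := fun p => by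
    obtain ⟨x, hx⟩ := QuotientGroup.mk_surjective p
    exact ⟨x, hx.symm⟩
  choose X hX using fun i => key (I i)
  choose Y hY using fun i => key (J i)
  have tr : ∀ (s x y : G₁), s • (QuotientGroup.mk x : G₁ ⧸ H.comap e.toMonoidHom) = QuotientGroup.mk y ↔
      e s • (QuotientGroup.mk (e x) : G₂ ⧸ H) = QuotientGroup.mk (e y) := by
    intro s x y
    rw [smul_mk_eq_mk_iff, smul_mk_eq_mk_iff, Subgroup.mem_comap]
    simp
  obtain ⟨g, hg⟩ := hB n (fun i => QuotientGroup.mk (e.symm (X i))) (fun i => QuotientGroup.mk (e.symm (Y i))) hn (by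
    intro i j hij
    obtain ⟨g, h1, h2⟩ := hp i j hij
    refine ⟨e.symm g, ?_, ?_⟩
    · rw [tr]
      simp only [MulEquiv.apply_symm_apply]
      rw [← hX, ← hY]
      exact h1
    · rw [tr]
      simp only [MulEquiv.apply_symm_apply]
      rw [← hX, ← hY]
      exact h2)
  refine ⟨e g, fun i => ?_⟩
  have := (tr _ _ _).1 (hg i)
  simp only [MulEquiv.apply_symm_apply] at this
  rw [hX i, hY i]
  exact this

theorem bin_comap_iff (e : G₁ ≃* G₂) (H : Subgroup G₂) : Bin (H.comap e.toMonoidHom) ↔ Bin H := by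
  constructor
  · exact bin_of_comap e
  · intro hB
    apply bin_of_comap e.symm
    have : (H.comap e.toMonoidHom).comap e.symm.toMonoidHom = H := by
      ext y
      simp [Subgroup.mem_comap]
    rw [this]
    exact hB

theorem mem_center_map {Γ : Type*} [Group Γ] (P : Subgroup Γ) (y : Γ) :
    y ∈ (Subgroup.center P).map P.subtype ↔ y ∈ P ∧ ∀ t ∈ P, t * y = y * t := by
  constructor
  · rintro ⟨u, hu, rfl⟩
    refine ⟨u.2, fun t ht => ?_⟩
    have := (Subgroup.mem_center_iff.mp hu) ⟨t, ht⟩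
    exact congrArg Subtype.val this
  · rintro ⟨h1, h2⟩
    refine ⟨⟨y, h1⟩, ?_, rfl⟩
    change (⟨y, h1⟩ : P) ∈ Subgroup.center P
    rw [Subgroup.mem_center_iff]
    intro t
    exact Subtype.ext (h2 t.1 t.2)

end transfer

variable {F : Type*} [Field F] [Fintype F] {m : ℕ} (h : Hyp F m)
include h

/-- Elements of `x U x⁻¹` commuting with `x U x⁻¹` are those of `x Z x⁻¹`. -/
theorem mem_cj_Z_iff (x y : G F m) :
    y ∈ cj x (Zsub h) ↔ y ∈ cj x (Usub h) ∧ ∀ t ∈ cj x (Usub h), t * y = y * t := by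
  rw [mem_cj]
  constructor
  · rintro ⟨b, hb⟩
    refine ⟨?_, fun t ht => ?_⟩
    · rw [mem_cj, hb]
      exact ⟨0, b, rfl⟩
    · rw [mem_cj] at ht
      obtain ⟨c, d, hcd⟩ := ht
      have h1 := Lg_zero_comm h b c d
      rw [← hb, ← hcd] at h1
      have h2 : x * ((x⁻¹ * y * x) * (x⁻¹ * t * x)) * x⁻¹ = x * ((x⁻¹ * t * x) * (x⁻¹ * y * x)) * x⁻¹ := by
        rw [h1]
      have e1 : x * ((x⁻¹ * y * x) * (x⁻¹ * t * x)) * x⁻¹ = y * t := by group
      have e2 : x * ((x⁻¹ * t * x) * (x⁻¹ * y * x)) * x⁻¹ = t * y := by group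
      rw [e1, e2] at h2
      exact h2.symm
  · rintro ⟨h1, h2⟩
    rw [mem_cj] at h1
    obtain ⟨a, b, hab⟩ := h1
    have ha : a = 0 := by
      apply central_of_comm h (b := b)
      intro c d
      have h3 := h2 (x * Lg h c d * x⁻¹) (by
        rw [mem_cj]
        have e : x⁻¹ * (x * Lg h c d * x⁻¹) * x = Lg h c d := by group
        rw [e]
        exact ⟨c, d, rfl⟩)
      rw [← hab]
      have e1 : (x⁻¹ * y * x) * Lg h c d = x⁻¹ * (y * (x * Lg h c d * x⁻¹)) * x := by group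
      have e2 : Lg h c d * (x⁻¹ * y * x) = x⁻¹ * ((x * Lg h c d * x⁻¹) * y) * x := by group
      rw [e1, e2, h3]
    subst ha
    exact ⟨b, hab⟩

/-- The classification for the matrix model. -/
theorem main_Lie (H : Subgroup (Cfsg.Lie.Sz F (2 ^ (m + 1)))) (hH : H ≠ ⊤) :
    Bin H ↔ (H = ⊥ ∨ ∃ P : Sylow 2 (Cfsg.Lie.Sz F (2 ^ (m + 1))),
      H = (Subgroup.center (P : Subgroup (Cfsg.Lie.Sz F (2 ^ (m + 1))))).map (P : Subgroup (Cfsg.Lie.Sz F (2 ^ (m + 1)))).subtype) := by
  set e := suzEquiv h with he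
  set H₁ := H.comap e.toMonoidHom with hH₁
  have hH₁top : H₁ ≠ ⊤ := by
    intro hc
    apply hH
    rw [eq_top_iff]
    intro y _
    have h1 : e.symm y ∈ H₁ := by
      rw [hc]
      trivial
    have h2 : e (e.symm y) ∈ H := h1
    simpa using h2
  rw [← bin_comap_iff e H, ← hH₁, main_G h hH₁top]
  have hbotiff : H₁ = ⊥ ↔ H = ⊥ := by
    constructor
    · intro hc
      rw [eq_bot_iff]
      intro y hy
      have h1 : e.symm y ∈ H₁ := by
        change e (e.symm y) ∈ H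
        simpa using hy
      rw [hc, Subgroup.mem_bot] at h1
      have h2 : y = e (e.symm y) := by simp
      rw [h2, h1, map_one]
      exact Subgroup.one_mem _
    · rintro rfl
      rw [eq_bot_iff]
      intro y hy
      have h1 : e y ∈ (⊥ : Subgroup _) := hy
      rw [Subgroup.mem_bot] at h1
      rw [Subgroup.mem_bot]
      exact e.injective (by rw [h1, map_one])
  rw [hbotiff]
  apply or_congr Iff.rfl
  constructor
  · rintro ⟨x, hx⟩
    have : Fact (Nat.Prime 2) := ⟨Nat.prime_two⟩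
    let P₁ : Sylow 2 (G F m) := x • Usyl h
    have hP₁ : (P₁ : Subgroup (G F m)) = cj x (Usub h) := rfl
    let P : Sylow 2 (Cfsg.Lie.Sz F (2 ^ (m + 1))) := P₁.mapSurjective (f := e.toMonoidHom) e.surjective
    have hP : ∀ y : G F m, e y ∈ (P : Subgroup (Cfsg.Lie.Sz F (2 ^ (m + 1)))) ↔ y ∈ cj x (Usub h) := by
      intro y
      change e y ∈ (P₁ : Subgroup (G F m)).map e.toMonoidHom ↔ _
      rw [← hP₁]
      constructor
      · rintro ⟨u, hu, hue⟩
        have : u = y := e.injective hue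
        rwa [← this]
      · intro hy
        exact ⟨y, hy, rfl⟩
    refine ⟨P, ?_⟩
    ext y
    rw [mem_center_map]
    obtain ⟨y₁, rfl⟩ := e.surjective y
    have h1 : e y₁ ∈ H ↔ y₁ ∈ H₁ := Iff.rfl
    rw [h1, hx, mem_cj_Z_iff h, hP]
    apply and_congr Iff.rfl
    constructor
    · intro h2 t ht
      obtain ⟨t₁, rfl⟩ := e.surjective t
      have h3 := h2 t₁ ((hP t₁).1 ht)
      rw [← map_mul, ← map_mul, h3]
    · intro h2 t ht
      have h3 := h2 (e t) ((hP t).2 ht)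
      rw [← map_mul, ← map_mul] at h3
      exact e.injective h3
  · rintro ⟨P, hP⟩
    have : Fact (Nat.Prime 2) := ⟨Nat.prime_two⟩
    let P₁ : Sylow 2 (G F m) := P.comapOfInjective e.toMonoidHom e.injective (by
      intro y _
      obtain ⟨y₁, rfl⟩ := e.surjective y
      exact ⟨y₁, rfl⟩)
    have hP₁ : ∀ y : G F m, y ∈ (P₁ : Subgroup (G F m)) ↔ e y ∈ (P : Subgroup (Cfsg.Lie.Sz F (2 ^ (m + 1)))) :=
      fun y => Iff.rfl
    obtain ⟨x, hx⟩ := exists_conj h P₁
    have hx' : (P₁ : Subgroup (G F m)) = cj x (Usub h) := hx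
    refine ⟨x, ?_⟩
    ext y
    have h1 : y ∈ H₁ ↔ e y ∈ H := Iff.rfl
    rw [h1, hP, mem_center_map, mem_cj_Z_iff h, ← hx', hP₁]
    apply and_congr Iff.rfl
    constructor
    · intro h2 t ht
      have h3 := h2 (e t) ((hP₁ t).1 ht)
      rw [← map_mul, ← map_mul] at h3
      exact e.injective h3
    · intro h2 t ht
      obtain ⟨t₁, rfl⟩ := e.surjective t
      have h3 := h2 t₁ ((hP₁ t₁).2 ht)
      rw [← map_mul, ← map_mul, h3]

end Cfsg.Agent.Lib.BinSz.Main
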