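import Cfsg.Agent.Lib.BinSz.Trace

/-! Binary coset actions of the Suzuki group: subgroups of odd order. -/

set_option autoImplicit false
set_option linter.unusedSectionVars false
set_option linter.deprecated false
set_option linter.unusedSimpArgs false
set_option linter.style.longLine false
set_option linter.style.haveILetI false
set_option linter.unusedVariables false

namespace Cfsg.Agent.Lib.BinSz.Odd

open Cfsg.Agent.Lib.Suzuki.Basic Cfsg.Agent.Lib.Suzuki.Group Cfsg.Agent.Lib.Suzuki.Struct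
  Cfsg.Agent.Lib.Suzuki.Order Cfsg.Agent.Lib.Suzuki.Zass Cfsg.Agent.Lib.Suzuki.Sub
  Cfsg.Agent.Lib.Suzuki.Syl Cfsg.Agent.Lib.Suzuki.Gen Cfsg.Agent.Lib.Suzuki.Fix
  Cfsg.Agent.Lib.Suzuki.Cent Cfsg.Agent.Lib.Suzuki.Types Cfsg.Agent.Lib.Suzuki.Fixity
  Cfsg.Agent.Lib.Suzuki.Tori1 Cfsg.Agent.Lib.Suzuki.Tori2 Cfsg.Agent.Lib.Suzuki.Tori3
  Cfsg.Agent.Lib.Suzuki.Part Cfsg.Agent.Lib.Suzuki.SubOdd Cfsg.Agent.Lib.Suzuki.SubG
  Cfsg.Agent.Lib.Binary.Core Cfsg.Agent.Lib.BinSz.Basic Cfsg.Agent.Lib.BinSz.Even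
  Cfsg.Agent.Lib.BinSz.Trace

variable {F : Type*} [Field F] [Fintype F] {m : ℕ} (h : Hyp F m)
include h

variable {H : Subgroup (G F m)}

/-- The diagonal case. -/
theorem odd_D (hC : Crit H) (hab : ∀ x ∈ H, ∀ y ∈ H, x * y = y * x) {k : Fˣ} (hk : k ≠ 1)
    (hD : Dg h k ∈ H) : False := by
  have hk2 : k * k ≠ 1 := by
    intro hc
    apply hk
    apply Units.ext
    have h1 : ((k : F)) ^ 2 = 1 ^ 2 := by
      rw [pow_two, one_pow, ← Units.val_mul, hc, Units.val_one]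
    simpa using h.sq_inj h1
  obtain ⟨x₁, y₁, e₁⟩ := conj_LD h 1 0 hk
  obtain ⟨x₂, y₂, e₂⟩ := conj_LD h 1 0 hk2
  obtain ⟨g, hg1, hg2⟩ := hC (Lg h 1 0 * Dg h k)
  have ks₁ : g ∈ Ksub H (Lg h 1 0 * Dg h k) := hg2 _ (by
    rw [inv_mul_cancel]
    exact H.one_mem)
  have ks₂ : g ∈ Ksub H (Lg h 1 0 * Dg h (k * k)) := hg2 _ (by
    rw [← Dg_mul h]
    have e : (Lg h 1 0 * Dg h k)⁻¹ * (Lg h 1 0 * (Dg h k * Dg h k)) = Dg h k := by group
    rw [e]
    exact hD)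
  have hK : ∀ κ : Fˣ, Dg h κ ∈ H → ∀ g', g' ∈ Ksub H (Dg h κ) →
      g' • (oI : Om F m) = oI ∧ g' • (oA 0 0 : Om F m) = oA 0 0 := by
    intro κ hκ g' hg'
    have h1 := hg' 1 (by simpa using hκ)
    have h2 : g' ∈ H := by simpa using h1
    obtain ⟨l, rfl⟩ := mem_D_of_comm h hk (hab _ h2 _ hD)
    refine ⟨Dg_oI h l, ?_⟩
    rw [Dg_oA h]
    simp
  have hD2 : Dg h (k * k) ∈ H := by
    rw [← Dg_mul h]
    exact H.mul_mem hD hD
  have a₁ := hK k hD _ (inK_conj (a := Lg h x₁ y₁) (s := Dg h k) (by rw [← e₁]; exact ks₁))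
  have a₂ := hK (k * k) hD2 _ (inK_conj (a := Lg h x₂ y₂) (s := Dg h (k * k)) (by rw [← e₂]; exact ks₂))
  have hu0 : ∀ x y : F, Lg h x y • (oA 0 0 : Om F m) = oA x y := by
    intro x y
    rw [Lg_oA h]
    simp
  have fixI : g • (oI : Om F m) = oI := by
    have := a₁.1
    rw [mul_smul, mul_smul, Lg_oI h, inv_smul_eq_iff, Lg_oI h] at this
    exact this
  have fix₁ : g • (oA x₁ y₁ : Om F m) = oA x₁ y₁ := by
    have := a₁.2
    rw [mul_smul, mul_smul, hu0, inv_smul_eq_iff, hu0] at this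
    exact this
  have fix₂ : g • (oA x₂ y₂ : Om F m) = oA x₂ y₂ := by
    have := a₂.2
    rw [mul_smul, mul_smul, hu0, inv_smul_eq_iff, hu0] at this
    exact this
  have hne : (oA x₁ y₁ : Om F m) ≠ oA x₂ y₂ := by
    intro hc
    obtain ⟨e3, e4⟩ := oA_inj hc
    subst e3 e4
    -- `s₂ = c²` and `s₂ = c D(k)`
    have e5 : Lg h 1 0 * Dg h (k * k) = (Lg h 1 0 * Dg h k) * (Lg h 1 0 * Dg h k) := by
      rw [e₂, e₁, ← Dg_mul h]
      group
    have e6 : Lg h 1 0 * Dg h (k * k) = (Lg h 1 0 * Dg h k) * Dg h k := by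
      rw [← Dg_mul h]
      group
    have e7 := mul_left_cancel (e5.symm.trans e6)
    have e8 : Lg h 1 0 = 1 := by
      simpa using e7
    exact Lg_ne_one h (Or.inl one_ne_zero) e8
  have hg3 := eq_one_of_fix_three h g (oA_ne_oI x₁ y₁).symm hne (oA_ne_oI x₂ y₂).symm fixI fix₁ fix₂
  subst hg3
  rw [mul_one, inv_mem_iff] at hg1
  have hcomm := hab _ hg1 _ hD
  have e1 : Lg h 1 0 * Dg h k * Dg h k = Dg h k * Lg h 1 0 * Dg h k := by
    rw [hcomm, mul_assoc]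
  have e2 := mul_right_cancel e1
  rw [Dg_mul_Lg h] at e2
  have e3 := (Lg_Dg_inj h e2).1
  apply hk
  apply Units.ext
  rw [mul_one] at e3
  simpa using e3.symm

/-- Normal form of elements moving the point at infinity. -/
theorem exists_NF0 {g : G F m} (hg : g • (oI : Om F m) ≠ oI) :
    ∃ w ∈ Bor F m, ∃ a b : F, w * g * w⁻¹ = Tg h * Lg h a b := by
  rcases bruhat h g with ⟨a, b, k, rfl⟩ | ⟨a, b, c, d, k, rfl⟩
  · exfalso
    apply hg
    rw [mul_smul, Dg_oI h, Lg_oI h]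
  · obtain ⟨ν, hν⟩ := exists_sqrt_unit h k
    have hw : Dg h ν * (Lg h a b)⁻¹ ∈ Bor F m :=
      (Bor F m).mul_mem (Dsub_le_Bor h ⟨ν, rfl⟩) ((Bor F m).inv_mem (Usub_le_Bor h ⟨a, b, rfl⟩))
    refine ⟨_, hw, ?_⟩
    have e1 : (Dg h ν * (Lg h a b)⁻¹) * (Lg h a b * Tg h * (Lg h c d * Dg h k)) * (Dg h ν * (Lg h a b)⁻¹)⁻¹ =
        Dg h ν * Tg h * Lg h c d * (Dg h k * Lg h a b * (Dg h k)⁻¹) * Dg h k * (Dg h ν)⁻¹ := by group
    have e2 : Dg h ν * Tg h = Tg h * Dg h ν⁻¹ := by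
      have := Tg_mul_Dg h ν⁻¹
      rw [inv_inv] at this
      exact this.symm
    rw [e1, e2, Dg_conj_Lg h]
    obtain ⟨c', d', e4⟩ : ∃ c' d', Lg h c d * Lg h ((k : F) * a) ((k : F) ^ (2 ^ (m + 1)) * k * b) = Lg h c' d' :=
      ⟨c + (k : F) * a, d + (k : F) ^ (2 ^ (m + 1)) * k * b + c ^ (2 ^ (m + 1)) * ((k : F) * a), Lg_mul h c d _ _⟩
    have e5 : Tg h * Dg h ν⁻¹ * Lg h c d * Lg h ((k : F) * a) ((k : F) ^ (2 ^ (m + 1)) * k * b) * Dg h k * (Dg h ν)⁻¹ =
        Tg h * (Dg h ν⁻¹ * (Lg h c d * Lg h ((k : F) * a) ((k : F) ^ (2 ^ (m + 1)) * k * b)) * (Dg h ν⁻¹)⁻¹) *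
          (Dg h ν⁻¹ * Dg h k * (Dg h ν)⁻¹) := by group
    have e6 : ν⁻¹ * k * ν⁻¹ = 1 := by
      rw [← hν]
      group
    rw [e5, e4, Dg_conj_Lg h, Dg_inv h, Dg_mul h, Dg_mul h, e6, Dg_one h, mul_one]
    exact ⟨_, _, rfl⟩

/-- Normal form avoiding the exceptional element. -/
theorem exists_NF {A : G F m} (hA : Fpf A) :
    ∃ (y : G F m) (a b : F), y * A * y⁻¹ = Tg h * Lg h a b ∧ ¬ (a = 0 ∧ b = 1) := by
  classical
  by_contra hcon
  have hcon' : ∀ (y : G F m) (a b : F), y * A * y⁻¹ = Tg h * Lg h a b → a = 0 ∧ b = 1 := by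
    intro y a b e
    by_contra hne
    exact hcon ⟨y, a, b, e, hne⟩
  obtain ⟨w₀, hw₀, a₀, b₀, e₀⟩ := exists_NF0 h (hA oI)
  obtain ⟨ha₀, hb₀⟩ := hcon' _ _ _ e₀
  subst ha₀ hb₀
  set A₀ := Tg h * Lg h 0 1 with hA₀
  have hF₀ : Fpf A₀ := by
    rw [← e₀]
    exact fpf_conj hA w₀
  have htrans : ∀ ω : Om F m, ∃ c ∈ cent A₀, c • (oI : Om F m) = ω := by
    intro ω
    obtain ⟨x, hx⟩ := exists_mv h ω
    have hF₁ := fpf_conj hF₀ x⁻¹
    obtain ⟨w, hw, a, b, e⟩ := exists_NF0 h (hF₁ oI)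
    have e' : (w * x⁻¹ * w₀) * A * (w * x⁻¹ * w₀)⁻¹ = Tg h * Lg h a b := by
      rw [← e]
      have e2 : (w * x⁻¹ * w₀) * A * (w * x⁻¹ * w₀)⁻¹ = w * (x⁻¹ * (w₀ * A * w₀⁻¹) * x⁻¹⁻¹) * w⁻¹ := by group
      rw [e2, e₀]
    obtain ⟨rfl, rfl⟩ := hcon' _ _ _ e'
    refine ⟨(w * x⁻¹)⁻¹, (cent A₀).inv_mem ?_, ?_⟩
    · apply mem_cent.mpr
      have e3 : w * (x⁻¹ * A₀ * x⁻¹⁻¹) * w⁻¹ = A₀ := e
      calc (w * x⁻¹) * A₀ = (w * (x⁻¹ * A₀ * x⁻¹⁻¹) * w⁻¹) * (w * x⁻¹) := by group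
        _ = A₀ * (w * x⁻¹) := by rw [e3]
    · have hw' := MulAction.mem_stabilizer_iff.mp ((Bor F m).inv_mem hw)
      rw [mul_inv_rev, inv_inv, mul_smul, hw', hx]
  let TA : Tor F m := ⟨cent A₀, A₀, hF₀, rfl⟩
  have hle : Nat.card (Om F m) ≤ Nat.card (cent A₀) :=
    Nat.card_le_card_of_surjective (fun c : cent A₀ => c.1 • (oI : Om F m)) (by
      intro ω
      obtain ⟨c, hc, hcω⟩ := htrans ω
      exact ⟨⟨c, hc⟩, hcω⟩)
  rw [card_Om, h.hF] at hle
  have h1 := h.hm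
  have hq8 := Cfsg.Agent.Lib.BinSz.Even.card_ge h
  rw [h.hF] at hq8
  have hr : 2 ^ (m + 1) ≤ 2 ^ (2 * m + 1) := Nat.pow_le_pow_right (by norm_num) (by omega)
  have hc2 : Nat.card (cent A₀) ≤ 2 ^ (2 * m + 1) + 2 ^ (m + 1) + 1 := by
    rcases card_tor h TA with h3 | h3
    · exact h3.le
    · have h3' : Nat.card (cent A₀) = 2 ^ (2 * m + 1) - 2 ^ (m + 1) + 1 := h3
      rw [h3']
      have h4 := Nat.sub_le (2 ^ (2 * m + 1)) (2 ^ (m + 1))
      generalize 2 ^ (2 * m + 1) = q at h4 ⊢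
      generalize 2 ^ (m + 1) = r at h4 ⊢
      omega
  generalize 2 ^ (2 * m + 1) = q at *
  generalize 2 ^ (m + 1) = r at *
  nlinarith

/-- The fixed-point-free case in standard form. -/
theorem odd_std (hC : Crit H) (hab : ∀ x ∈ H, ∀ y ∈ H, x * y = y * x) {a b : F}
    (hne : ¬ (a = 0 ∧ b = 1)) (hF : Fpf (Tg h * Lg h a b)) (hmem : Tg h * Lg h a b ∈ H) : False := by
  set A := Tg h * Lg h a b with hAdef
  have hT : tr A ≠ 0 := tr_ne_zero h hF
  obtain ⟨d, hd⟩ : ∃ d : F, (d ^ (2 ^ (m + 1))) ^ 2 = tr A := by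
    have hinj : Function.Injective (fun t : F => t ^ 2) := fun s t e => h.sq_inj e
    obtain ⟨e, he⟩ := (Finite.injective_iff_surjective.mp hinj) (tr A)
    obtain ⟨d, hd⟩ := pow_sg_surj h e
    exact ⟨d, by rw [hd]; exact he⟩
  have hd0 : d ≠ 0 := by
    rintro rfl
    rw [zero_pow_sg h] at hd
    apply hT
    rw [← hd]
    simp
  set z := Lg h 0 d with hz
  have hzz : z * z = 1 := Lg_zero_sq h d
  have hzi : z⁻¹ = z := Lz_inv h d
  set V := z * A⁻¹ * z with hV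
  have hzL : z * (Lg h a b)⁻¹ = (Lg h a b)⁻¹ * z :=
    (show Commute z (Lg h a b) from Lg_zero_comm h d a b).inv_right.eq
  have htr : tr (V * A) = tr A := by
    have e1 : V * A = (Lg h a b)⁻¹ * (z * Tg h * z * Tg h) * (Lg h a b)⁻¹⁻¹ := by
      have e2 : z * (Tg h * Lg h a b)⁻¹ * z * (Tg h * Lg h a b) =
          (z * (Lg h a b)⁻¹) * (Tg h)⁻¹ * z * Tg h * Lg h a b := by group
      rw [hV, hAdef, e2, hzL, Tg_inv h]
      group
    rw [e1, tr_conj, hz, tr_ZTZT h, hd]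
  obtain ⟨w, hw⟩ := conj_of_tr_eq h hF htr
  obtain ⟨g, hg1, hg2⟩ := hC V
  have k₁ : g ∈ Ksub H V := hg2 V (by
    rw [inv_mul_cancel]
    exact H.one_mem)
  have k₂ : g ∈ Ksub H (V * A) := hg2 _ (by
    rw [inv_mul_cancel_left]
    exact hmem)
  have a₁ := k₁ z (by
    have e : z⁻¹ * V * z = A⁻¹ * (z * z) := by
      rw [hV]
      group
    rw [e, hzz, mul_one]
    exact H.inv_mem hmem)
  have a₂ := k₂ w (by
    rw [hw]
    have e : w⁻¹ * (w * A * w⁻¹) * w = A := by group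
    rw [e]
    exact hmem)
  have comm₁ := hab _ a₁ _ hmem
  have comm₂ := hab _ a₂ _ hmem
  -- `g` commutes with `B = z A z`
  set B := z * A * z with hB
  have hVB : V * B = 1 := by
    have e : V * B = z * A⁻¹ * (z * z) * A * z := by
      rw [hV, hB]
      group
    have e2 : z * A⁻¹ * 1 * A * z = z * z := by group
    rw [e, hzz, e2, hzz]
  have hBV : B = V⁻¹ := eq_inv_of_mul_eq_one_right hVB
  have cB : g * B = B * g := by
    have e1 : g * B = z * ((z⁻¹ * g * z) * A) * z := by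
      rw [hB, hzi]
      have e2 : z * (z * g * z * A) * z = (z * z) * g * (z * A * z) := by group
      rw [e2, hzz, one_mul]
    have e3 : B * g = z * (A * (z⁻¹ * g * z)) * z := by
      rw [hB, hzi]
      have e2 : z * (A * (z * g * z)) * z = (z * A * z) * g * (z * z) := by group
      rw [e2, hzz, mul_one]
    rw [e1, e3, comm₁]
  have cVA : g * (V * A) = (V * A) * g := by
    rw [hw]
    have e1 : g * (w * A * w⁻¹) = w * ((w⁻¹ * g * w) * A) * w⁻¹ := by group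
    have e2 : (w * A * w⁻¹) * g = w * (A * (w⁻¹ * g * w)) * w⁻¹ := by group
    rw [e1, e2, comm₂]
  have cA : g * A = A * g := by
    have eA : A = B * (V * A) := by
      rw [hBV, inv_mul_cancel_left]
    calc g * A = g * (B * (V * A)) := by rw [← eA]
      _ = (g * B) * (V * A) := by group
      _ = (B * g) * (V * A) := by rw [cB]
      _ = B * (g * (V * A)) := by group
      _ = B * ((V * A) * g) := by rw [cVA]
      _ = (B * (V * A)) * g := by group
      _ = A * g := by rw [← eA]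
  have cV : V * g = g * V := by
    have := (show Commute g B from cB)
    rw [hBV] at this
    exact (Commute.inv_right_iff.mp this).eq.symm
  -- `V` commutes with `A`
  have hVA : V * A = A * V := by
    by_cases hg : g = 1
    · subst hg
      rw [mul_one, inv_mem_iff] at hg1
      exact hab _ hg1 _ hmem
    · have hgA : g ∈ cent A := mem_cent.mpr cA
      have hcent := Fpf.cent_eq h hF hgA hg
      have hVg : V ∈ cent g := mem_cent.mpr cV
      rw [hcent] at hVg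
      exact mem_cent.mp hVg
  have hBA : B * A = A * B := by
    rw [hBV]
    exact ((show Commute V A from hVA).inv_left).eq
  -- `A B` commutes with `z`
  have hwz : (A * B) * z = z * (A * B) := by
    have e1 : (A * B) * z = A * z * A * (z * z) := by
      rw [hB]
      group
    have e2 : z * (A * B) = B * A * z := by
      rw [hB]
      group
    rw [e1, e2, hBA, hzz, mul_one, hB]
    have e3 : A * (z * A * z) * z = A * z * A * (z * z) := by group
    rw [e3, hzz, mul_one]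
  obtain ⟨c₀, e₀, hce⟩ := mem_U_of_comm h (a := 0) (b := d) (Or.inr hd0) hwz
  have hABc : A * B ∈ cent A := by
    apply mem_cent.mpr
    calc (A * B) * A = A * (B * A) := by group
      _ = A * (A * B) := by rw [hBA]
  have hAB1 : A * B = 1 := by
    by_contra hne1
    have hFw := Fpf.of_mem_cent h hF hABc hne1
    apply hFw oI
    rw [hce]
    exact Lg_oI h c₀ e₀
  have hVeqA : V = A := by
    have e1 : B = A⁻¹ := eq_inv_of_mul_eq_one_right hAB1
    have e2 : V⁻¹ = A⁻¹ := by rw [← hBV, e1]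
    exact inv_injective e2
  -- apply to the point at infinity
  have hpt : (z * (Lg h a b)⁻¹) • (oA 0 0 : Om F m) = oA 0 0 := by
    have e1 : V • (oI : Om F m) = A • oI := by rw [hVeqA]
    have e2 : A • (oI : Om F m) = oA 0 0 := by
      rw [hAdef, mul_smul, Lg_oI h, Tg_oI h]
    have e3 : V • (oI : Om F m) = (z * (Lg h a b)⁻¹) • (Tg h • (oI : Om F m)) := by
      have e4 : V = z * (Lg h a b)⁻¹ * (Tg h)⁻¹ * z := by
        rw [hV, hAdef]
        group
      have hzoI : z • (oI : Om F m) = oI := Lg_oI h 0 d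
      calc V • (oI : Om F m) = (z * (Lg h a b)⁻¹ * (Tg h)⁻¹ * z) • (oI : Om F m) := by rw [← e4]
        _ = (z * (Lg h a b)⁻¹) • ((Tg h)⁻¹ • (z • (oI : Om F m))) := by simp only [mul_smul]
        _ = _ := by rw [hzoI, Tg_inv h]
    rw [e2, e3, Tg_oI h] at e1
    exact e1
  obtain ⟨c', d', hcd⟩ : z * (Lg h a b)⁻¹ ∈ Usub h :=
    (Usub h).mul_mem ⟨0, d, rfl⟩ ((Usub h).inv_mem ⟨a, b, rfl⟩)
  rw [hcd, Lg_oA h] at hpt
  obtain ⟨e1, e2⟩ := oA_inj hpt
  have hc' : c' = 0 := by simpa using e1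
  subst hc'
  have hd' : d' = 0 := by simpa using e2
  subst hd'
  rw [Lg_zero h] at hcd
  have hLz : Lg h a b = z := (mul_inv_eq_one.mp hcd).symm
  obtain ⟨ha0, hbd⟩ := Lg_inj h (hLz.trans hz)
  have htrA : tr A = d ^ (2 ^ (m + 1)) := by
    rw [hAdef, ha0, hbd]
    exact tr_TL h d
  rw [htrA] at hd
  have hσ : d ^ (2 ^ (m + 1)) ≠ 0 := pow_ne_zero _ hd0
  have h1 : d ^ (2 ^ (m + 1)) = 1 := by
    rw [pow_two] at hd
    exact mul_left_cancel₀ hσ (by rw [hd, mul_one])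
  have h2 : d = 1 := h.pow_sg_inj (by rw [h1, one_pow])
  exact hne ⟨ha0, hbd.trans h2⟩

/-- The odd case. -/
theorem odd_case (hC : Crit H) (hbot : H ≠ ⊥) (hodd : Odd (Nat.card H)) : False := by
  have : Finite (G F m) := finite_G
  obtain ⟨X, hc, hcard, hle⟩ := le_of_odd_normal h hbot hodd Subgroup.le_normalizer
  have hHX := le_of_le_normalizer_odd h hc hcard hle hodd
  have hab : ∀ x ∈ H, ∀ y ∈ H, x * y = y * x := by
    intro x hx y hy
    have := hc.commutative.is_comm.comm ⟨x, hHX hx⟩ ⟨y, hHX hy⟩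
    exact congrArg Subtype.val this
  obtain ⟨A, hA, hA1⟩ := H.bot_or_exists_ne_one.resolve_left hbot
  rcases trichotomy h hA1 with ⟨x, a, b, hne, rfl⟩ | ⟨x, k, hk, rfl⟩ | hf
  · have h4 : (x * Lg h a b * x⁻¹) ^ 4 = 1 := by
      rw [conj_pow, Lg_pow_four h]
      group
    have hd1 : orderOf (x * Lg h a b * x⁻¹) ∣ 4 := orderOf_dvd_of_pow_eq_one h4
    have hd2 : orderOf (x * Lg h a b * x⁻¹) ∣ Nat.card H := Subgroup.orderOf_dvd_natCard H hA
    have hcop : Nat.Coprime 4 (Nat.card H) := Nat.Coprime.pow_left 2 (Nat.coprime_two_left.mpr hodd)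
    have h1 : orderOf (x * Lg h a b * x⁻¹) = 1 := Nat.eq_one_of_dvd_coprimes hcop hd1 hd2
    exact hA1 (orderOf_eq_one_iff.mp h1)
  · have hC' := Crit.conj hC x⁻¹
    refine odd_D h hC' ?_ hk ?_
    · intro u hu v hv
      rw [mem_cj, inv_inv] at hu hv
      have h1 := hab _ hu _ hv
      have h2 : x * (u * v) * x⁻¹ = x * (v * u) * x⁻¹ := by
        have e1 : x * (u * v) * x⁻¹ = (x * u * x⁻¹) * (x * v * x⁻¹) := by group
        have e2 : x * (v * u) * x⁻¹ = (x * v * x⁻¹) * (x * u * x⁻¹) := by group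
        rw [e1, e2, h1]
      exact mul_left_cancel (mul_right_cancel h2)
    · rw [mem_cj, inv_inv]
      exact hA
  · obtain ⟨y, a, b, e, hne⟩ := exists_NF h hf
    have hC' := Crit.conj hC y
    refine odd_std h hC' ?_ hne ?_ ?_
    · intro u hu v hv
      rw [mem_cj] at hu hv
      have h1 := hab _ hu _ hv
      have h2 : y⁻¹ * (u * v) * y = y⁻¹ * (v * u) * y := by
        have e1 : y⁻¹ * (u * v) * y = (y⁻¹ * u * y) * (y⁻¹ * v * y) := by group
        have e2 : y⁻¹ * (v * u) * y = (y⁻¹ * v * y) * (y⁻¹ * u * y) := by group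
        rw [e1, e2, h1]
      exact mul_left_cancel (mul_right_cancel h2)
    · rw [← e]
      exact fpf_conj hf y
    · rw [mem_cj, ← e]
      have e2 : y⁻¹ * (y * A * y⁻¹) * y = A := by group
      rw [e2]
      exact hA

/-- The classification for the ovoid model. -/
theorem main_G (hH : H ≠ ⊤) : Bin H ↔ H = ⊥ ∨ ∃ x, H = cj x (Zsub h) := by
  constructor
  · intro hB
    have : Finite (G F m) := finite_G
    have hC := hB.crit
    by_cases hbot : H = ⊥
    · exact Or.inl hbot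
    · right
      by_cases hev : 2 ∣ Nat.card H
      · exact even_case h hC hH hev
      · exact (odd_case h hC hbot (Nat.odd_iff.mpr (by omega))).elim
  · rintro (rfl | ⟨x, rfl⟩)
    · exact bin_bot
    · exact (bin_Z h).conj x

end Cfsg.Agent.Lib.BinSz.Odd
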