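import Cfsg.Agent.Lib.BinSz.Even

/-! Binary coset actions of the Suzuki group: traces, characteristic polynomials and conjugacy of
fixed-point-free elements with the same trace. -/

set_option autoImplicit false
set_option linter.unusedSectionVars false
set_option linter.deprecated false
set_option linter.unusedSimpArgs false
set_option linter.style.longLine false
set_option linter.style.haveILetI false
set_option linter.unusedVariables false

namespace Cfsg.Agent.Lib.BinSz.Trace

open Cfsg.Agent.Lib.Suzuki.Basic Cfsg.Agent.Lib.Suzuki.Group Cfsg.Agent.Lib.Suzuki.Struct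
  Cfsg.Agent.Lib.Suzuki.Order Cfsg.Agent.Lib.Suzuki.Zass Cfsg.Agent.Lib.Suzuki.Sub
  Cfsg.Agent.Lib.Suzuki.Syl Cfsg.Agent.Lib.Suzuki.Gen Cfsg.Agent.Lib.Suzuki.Fix
  Cfsg.Agent.Lib.Suzuki.Cent Cfsg.Agent.Lib.Suzuki.Types Cfsg.Agent.Lib.Suzuki.Fixity
  Cfsg.Agent.Lib.Suzuki.Tori1 Cfsg.Agent.Lib.Suzuki.Tori2 Cfsg.Agent.Lib.Suzuki.Tori3
  Cfsg.Agent.Lib.Suzuki.Part Cfsg.Agent.Lib.Suzuki.Core Cfsg.Agent.Lib.Suzuki.Iso
  Cfsg.Agent.Lib.Binary.Core Cfsg.Agent.Lib.BinSz.Basic Cfsg.Agent.Lib.BinSz.Even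
open Polynomial Matrix
open scoped Cfsg.Lie

section rels

variable {F : Type*} [Field F]

/-- The relations among the coefficients of the characteristic polynomial. -/
theorem char_rels (h2 : (2 : F) = 0) (y₀ : F) (hy0 : y₀ ≠ 0) (hy1 : y₀ ≠ 1)
    {e : ℕ} (he : e ≠ 0) (hadd : ∀ x y : F, (x + y) ^ e = x ^ e + y ^ e)
    {g : Matrix (Fin 4) (Fin 4) F} (hg : ColRel g)
    (hstar : Cfsg.Lie.star4 g = g.map fun x => x ^ e) :
    g.det = 1 ∧ coefC g = coefA g ∧ coefB g = (coefA g) ^ e := by
  set a := coefA g with ha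
  set b := coefB g with hb
  set c := coefC g with hc
  set d := g.det with hd
  have hJdet : ((Jm : Matrix (Fin 4) (Fin 4) F).det) ^ 2 = 1 := by
    rw [pow_two, ← Matrix.det_mul, Jm_mul_Jm, Matrix.det_one]
  have hsym : ∀ x y : F, (y • (1 : Matrix (Fin 4) (Fin 4) F) - x • g).det =
      d * (x • (1 : Matrix (Fin 4) (Fin 4) F) - y • g).det := by
    intro x y
    have e1 : y • (1 : Matrix (Fin 4) (Fin 4) F) - x • g = g * (y • invOf g - x • 1) := by
      rw [Matrix.mul_sub, Matrix.mul_smul, Matrix.mul_smul, mul_invOf hg, Matrix.mul_one]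
    have e2 : y • invOf g - x • 1 = Jm * (y • g.transpose - x • 1) * Jm := by
      rw [Matrix.mul_sub, Matrix.sub_mul, Matrix.mul_smul, Matrix.smul_mul, Matrix.mul_smul,
        Matrix.smul_mul, Matrix.mul_one, Jm_mul_Jm]
      rfl
    have e3 : (Jm * (y • g.transpose - x • 1) * Jm : Matrix (Fin 4) (Fin 4) F).det =
        (y • g.transpose - x • (1 : Matrix (Fin 4) (Fin 4) F)).det := by
      rw [Matrix.det_mul, Matrix.det_mul]
      have : (Jm : Matrix (Fin 4) (Fin 4) F).det * Jm.det = 1 := by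
        rw [← pow_two]; exact hJdet
      calc _ = (y • g.transpose - x • (1 : Matrix (Fin 4) (Fin 4) F)).det *
            ((Jm : Matrix (Fin 4) (Fin 4) F).det * Jm.det) := by ring
        _ = _ := by rw [this, mul_one]
    have e4 : (y • g.transpose - x • (1 : Matrix (Fin 4) (Fin 4) F)) =
        (y • g - x • (1 : Matrix (Fin 4) (Fin 4) F)).transpose := by
      rw [Matrix.transpose_sub, Matrix.transpose_smul, Matrix.transpose_smul, Matrix.transpose_one]
    have e5 : (y • g - x • (1 : Matrix (Fin 4) (Fin 4) F)) =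
        - (x • (1 : Matrix (Fin 4) (Fin 4) F) - y • g) := by
      rw [neg_sub]
    rw [e1, Matrix.det_mul, e2, e3, e4, Matrix.det_transpose, e5, Matrix.det_neg, Fintype.card_fin,
      ← hd]
    ring
  have hexp : ∀ x y : F, y ^ 4 - a * x * y ^ 3 + b * x ^ 2 * y ^ 2 - c * x ^ 3 * y + d * x ^ 4 =
      d * (x ^ 4 - a * y * x ^ 3 + b * y ^ 2 * x ^ 2 - c * y ^ 3 * x + d * y ^ 4) := by
    intro x y
    have := hsym x y
    rw [det_homog, det_homog] at this
    exact this
  have hd1 : d = 1 := by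
    have h := hexp 0 1
    have h' : (d - 1) ^ 2 = 0 := by
      simp at h
      linear_combination -h + (1 - d) * h2
    have := pow_eq_zero_iff (two_ne_zero) |>.mp h'
    exact sub_eq_zero.mp this
  have hca : c = a := by
    have h := hexp 1 y₀
    rw [hd1] at h
    have h' : (c - a) * (y₀ * (y₀ + 1) ^ 2) = 0 := by
      linear_combination h + (c - a) * (y₀ ^ 2 + y₀) * h2
    have hy2 : y₀ + 1 ≠ 0 := by
      intro hh
      apply hy1
      linear_combination hh - h2
    have hne : y₀ * (y₀ + 1) ^ 2 ≠ 0 := mul_ne_zero hy0 (pow_ne_zero _ hy2)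
    exact sub_eq_zero.mp ((mul_eq_zero.mp h').resolve_right hne)
  refine ⟨hd1, hca, ?_⟩
  have h1 := trace_star4 (by exact h2) hg
  rw [hstar] at h1
  have h3 : Matrix.trace (g.map fun x => x ^ e) = a ^ e := by
    rw [Matrix.trace, Fin.sum_univ_four, ha, coefA, hadd, hadd, hadd]
    rfl
  rw [h3] at h1
  exact h1.symm

/-- Roots of a polynomial in a field. -/
theorem ncard_roots_le_aux {K : Type*} [Field K] [Algebra F K] (f : F[X]) (hf : f ≠ 0) (S : Set K)
    (hS : ∀ s ∈ S, aeval s f = 0) : S.ncard ≤ f.natDegree := by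
  classical
  have hsub : S ⊆ ((f.aroots K).toFinset : Set K) := by
    intro s hs
    simp only [Finset.mem_coe, Multiset.mem_toFinset]
    rw [Polynomial.mem_aroots]
    exact ⟨hf, hS s hs⟩
  calc S.ncard ≤ ((f.aroots K).toFinset : Set K).ncard :=
        Set.ncard_le_ncard hsub (Finset.finite_toSet _)
    _ = (f.aroots K).toFinset.card := Set.ncard_coe_finset _
    _ ≤ Multiset.card (f.aroots K) := Multiset.toFinset_card_le _
    _ ≤ (f.map (algebraMap F K)).natDegree := Polynomial.card_roots' _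
    _ ≤ f.natDegree := Polynomial.natDegree_map_le

theorem ncard_roots_le {K : Type*} [Ring K] [Algebra F K] (hK : IsField K) (f : F[X]) (hf : f ≠ 0)
    (S : Set K) (hS : ∀ s ∈ S, aeval s f = 0) : S.ncard ≤ f.natDegree :=
  @ncard_roots_le_aux F _ K hK.toField ‹Algebra F K› f hf S hS

end rels

theorem index_le_ncard_range {N X : Type*} [Group N] [Finite N] (C : Subgroup N) (f : N → X)
    (hf : ∀ x y, f x = f y → x⁻¹ * y ∈ C) : C.index ≤ (Set.range f).ncard := by
  have : Finite (Set.range f) := Set.finite_range f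
  rw [Subgroup.index, ← Nat.card_coe_set_eq]
  apply Nat.card_le_card_of_injective (fun q : N ⧸ C => (⟨f q.out, q.out, rfl⟩ : Set.range f))
  intro q q' he
  have h1 : f q.out = f q'.out := congrArg Subtype.val he
  have h2 := hf _ _ h1
  have h3 : (QuotientGroup.mk q.out : N ⧸ C) = QuotientGroup.mk q'.out := QuotientGroup.eq.mpr h2
  simpa [QuotientGroup.out_eq'] using h3

variable {F : Type*} [Field F] [Fintype F] {m : ℕ} (h : Hyp F m)

/-- The trace. -/
def tr (g : G F m) : F := coefA (mat g)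

omit [Fintype F] in
theorem coefA_eq_trace (M : Matrix (Fin 4) (Fin 4) F) : coefA M = Matrix.trace M := by
  rw [Matrix.trace, Fin.sum_univ_four]
  rfl

theorem tr_eq (g : G F m) : tr g = Matrix.trace (mat g) := coefA_eq_trace _

theorem mat_inj {g g' : G F m} (he : mat g = mat g') : g = g' := by
  apply Subtype.ext
  apply Subtype.ext
  exact he

theorem tr_conj (x g : G F m) : tr (x * g * x⁻¹) = tr g := by
  rw [tr_eq, tr_eq, mat_mul, mat_mul, Matrix.trace_mul_comm, ← Matrix.mul_assoc, ← mat_mul, ← mat_mul,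
    inv_mul_cancel, one_mul]

include h

/-- The relations for elements of the group. -/
theorem rels (g : G F m) :
    (mat g).det = 1 ∧ coefC (mat g) = tr g ∧ coefB (mat g) = (tr g) ^ (2 ^ (m + 1)) := by
  obtain ⟨y₀, hy0, hy1⟩ := exists_ne_zero_one h
  obtain ⟨h1, h2⟩ := Lie_mem h (toGL g) (toGL_mem h g)
  rw [toGL_val] at h1 h2
  exact char_rels h.two_eq_zero y₀ hy0 hy1 (by positivity) (fun x y => h.add_pow_sg x y) h1 h2

theorem charpoly_eq_of_tr {g g' : G F m} (he : tr g = tr g') : (mat g).charpoly = (mat g').charpoly := by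
  obtain ⟨a1, a2, a3⟩ := rels h g
  obtain ⟨b1, b2, b3⟩ := rels h g'
  rw [charpoly_eq, charpoly_eq, a1, a2, a3, b1, b2, b3]
  have : coefA (mat g) = coefA (mat g') := he
  rw [this, he]

theorem det_homog_eq_of_tr {g g' : G F m} (he : tr g = tr g') (x y : F) :
    (y • (1 : Matrix (Fin 4) (Fin 4) F) - x • mat g).det =
      (y • (1 : Matrix (Fin 4) (Fin 4) F) - x • mat g').det := by
  obtain ⟨a1, a2, a3⟩ := rels h g
  obtain ⟨b1, b2, b3⟩ := rels h g'
  rw [det_homog, det_homog, a1, a2, a3, b1, b2, b3]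
  have : coefA (mat g) = coefA (mat g') := he
  rw [this, he]

theorem aeval_rho (g : G F m) : aeval (rho g) (mat g).charpoly = 0 := by
  have h1 := Matrix.aeval_self_charpoly (mat g)
  have h2 := Polynomial.aeval_algHom_apply (Matrix.toLinAlgEquiv' (R := F) (n := Fin 4)).toAlgHom (mat g) (mat g).charpoly
  rw [h1, map_zero] at h2
  exact h2

/-- The commutant data of a fixed-point-free element has no eigenvalues. -/
theorem no_eig {A : G F m} (hA : Fpf A) (l : F) :
    (l • (1 : Matrix (Fin 4) (Fin 4) F) - (1 : F) • mat A).det ≠ 0 := by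
  intro hdet
  obtain ⟨p, n, hp, hp2, hd, hz1, hzp, hzF⟩ := Fpf.exists_prime h hA (Fpf.ne_one h hA)
  have : Fact p.Prime := ⟨hp⟩
  obtain ⟨v, hv, hv0⟩ := Matrix.exists_mulVec_eq_zero_iff.mpr hdet
  set z := A ^ n with hz
  have hAz : A ∈ cent z := mem_cent.mpr ((Commute.refl A).pow_right n)
  set B : Module.End F (Fin 4 → F) := rho A - algebraMap F _ l with hB
  have hBK : B ∈ Kz z := by
    apply Subalgebra.sub_mem
    · exact rho_mem_Kz h hAz
    · exact Subalgebra.algebraMap_mem _ _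
  have hBv : B v = 0 := by
    rw [hB, LinearMap.sub_apply, rho_apply]
    have h1 : (l • (1 : Matrix (Fin 4) (Fin 4) F) - (1 : F) • mat A) *ᵥ v = l • v - mat A *ᵥ v := by
      rw [Matrix.sub_mulVec, Matrix.smul_mulVec, Matrix.smul_mulVec, Matrix.one_mulVec, one_smul]
    rw [h1] at hv0
    have h2 : (algebraMap F (Module.End F (Fin 4 → F)) l) v = l • v := rfl
    rw [h2, ← neg_sub, hv0, neg_zero]
  have hB0 : B = 0 := by
    by_contra hne
    have hinj := Kz_inj hp2 hd z hzp hz1 hBK hne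
    exact hv (hinj (by rw [hBv, map_zero]))
  have hscal : ∀ y : G F m, rho y * rho A = rho A * rho y := by
    intro y
    have e : rho A = algebraMap F _ l := sub_eq_zero.mp hB0
    rw [e]
    exact (Algebra.commutes _ _).symm
  have hU : A ∈ Usub h := by
    apply mem_U_of_comm h (a := 1) (b := 0) (Or.inl one_ne_zero)
    apply rho_inj
    rw [map_mul, map_mul]
    exact (hscal _).symm
  obtain ⟨a, b, rfl⟩ := hU
  exact hA oI (Lg_oI h a b)

/-- The trace of a fixed-point-free element does not vanish. -/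
theorem tr_ne_zero {A : G F m} (hA : Fpf A) : tr A ≠ 0 := by
  intro h0
  apply no_eig h hA 1
  obtain ⟨a1, a2, a3⟩ := rels h A
  rw [det_homog, a1, a2, a3]
  have e : coefA (mat A) = 0 := h0
  rw [h0, e, zero_pow (by positivity)]
  have := h.two_eq_zero
  linear_combination this

/-- A matrix eigenvector of an element fixing a point. -/
theorem exists_eig_of_fix {g : G F m} {w : Om F m} (hw : g • w = w) :
    ∃ l : F, (l • (1 : Matrix (Fin 4) (Fin 4) F) - (1 : F) • mat g).det = 0 := by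
  obtain ⟨p, hp⟩ := w
  have hw' : g.1 • p = p := congrArg Subtype.val hw
  induction p using Projectivization.ind with
  | h v hv =>
    obtain ⟨c, hc, hcv⟩ := exists_of_smul_mk g.1 hv hv hw'
    refine ⟨c, ?_⟩
    apply Matrix.exists_mulVec_eq_zero_iff.mp
    refine ⟨v, hv, ?_⟩
    rw [Matrix.sub_mulVec, Matrix.smul_mulVec, Matrix.smul_mulVec, Matrix.one_mulVec, one_smul]
    have e : mat g *ᵥ v = c • v := hcv
    rw [e, sub_self]

set_option maxHeartbeats 1600000 in
/-- Same trace and fixed-point-free: conjugate. -/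
theorem conj_of_tr_eq {A g : G F m} (hA : Fpf A) (htr : tr g = tr A) : ∃ y : G F m, g = y * A * y⁻¹ := by
  classical
  have : Finite (G F m) := finite_G
  have hA1 := Fpf.ne_one h hA
  obtain ⟨p, n, hp, hp2, hd, hz1, hzp, hzF⟩ := Fpf.exists_prime h hA hA1
  have : Fact p.Prime := ⟨hp⟩
  set z := A ^ n with hz
  have hzmem : z ∈ cent A := mem_cent.mpr ((Commute.refl A).pow_left n)
  have hcz : cent z = cent A := Fpf.cent_eq h hA hzmem hz1
  have hK := Kz_isField hp2 hd z hzp hz1
  have hAz : A ∈ cent z := mem_cent.mpr ((Commute.refl A).pow_right n)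
  set N := Subgroup.normalizer ((cent A : Subgroup (G F m)) : Set (G F m)) with hN
  let ρ : N →* Module.End F (Fin 4 → F) := rho.comp N.subtype
  have hρ : ∀ (x : N), ρ x = rho x.1 := fun x => rfl
  have hmem : ∀ (x : N) (B : Kz z), ρ x * B.1 * ρ x⁻¹ ∈ Kz z := by
    intro x B
    have hx : x.1⁻¹ * z * x.1 ∈ cent z := by
      rw [hcz]
      have h1 := (Subgroup.mem_normalizer_iff.mp (N.inv_mem x.2) z).mp hzmem
      simpa using h1
    have h2 : rho (x.1⁻¹ * z * x.1) ∈ Kz z := rho_mem_Kz h hx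
    have h3 := hK.mul_comm ⟨rho (x.1⁻¹ * z * x.1), h2⟩ B
    have h4 : rho (x.1⁻¹ * z * x.1) * B.1 = B.1 * rho (x.1⁻¹ * z * x.1) := congrArg Subtype.val h3
    rw [mem_Kz]
    exact conj_comm rho x.1 z B.1 h4
  let Θ := conjHom (Kz z) ρ hmem
  have hΘ : ∀ (x : N) (B : Kz z), ((Θ x B : Kz z) : Module.End F (Fin 4 → F)) = ρ x * B.1 * ρ x⁻¹ :=
    fun x B => rfl
  let a : Kz z := ⟨rho A, rho_mem_Kz h hAz⟩
  let f : N → Kz z := fun x => Θ x a
  have hf : ∀ x : N, ((f x : Kz z) : Module.End F (Fin 4 → F)) = rho (x.1 * A * x.1⁻¹) := by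
    intro x
    rw [hΘ, map_mul, map_mul]
    rfl
  -- the range of `f` has at least four elements
  let TA : Tor F m := ⟨cent A, A, hA, rfl⟩
  have hNc : Nat.card N = 4 * Nat.card (cent A) := tor_normalizer h TA
  let C : Subgroup N := (cent A).subgroupOf N
  have hCc : Nat.card C = Nat.card (cent A) :=
    Nat.card_congr (Subgroup.subgroupOfEquivOfLe (Subgroup.le_normalizer (H := cent A))).toEquiv
  have hind : C.index = 4 := by
    have h1 := Subgroup.card_mul_index C
    rw [hCc, hNc] at h1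
    have hpos : 0 < Nat.card (cent A) := Nat.card_pos
    have h2 : Nat.card (cent A) * C.index = Nat.card (cent A) * 4 := by rw [h1]; ring
    exact Nat.eq_of_mul_eq_mul_left hpos h2
  have hfib : ∀ x y : N, f x = f y → x⁻¹ * y ∈ C := by
    intro x y he
    have h1 : rho (x.1 * A * x.1⁻¹) = rho (y.1 * A * y.1⁻¹) := by
      rw [← hf, ← hf, he]
    have h2 := rho_inj h1
    rw [Subgroup.mem_subgroupOf]
    apply mem_cent.mpr
    change x.1⁻¹ * y.1 * A = A * (x.1⁻¹ * y.1)
    calc x.1⁻¹ * y.1 * A = x.1⁻¹ * (y.1 * A * y.1⁻¹) * y.1 := by group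
      _ = x.1⁻¹ * (x.1 * A * x.1⁻¹) * y.1 := by rw [h2]
      _ = A * (x.1⁻¹ * y.1) := by group
  have hS4 : 4 ≤ (Set.range f).ncard :=
    hind.symm.le.trans (index_le_ncard_range C f hfib)
  -- roots
  have haeval : ∀ (u : G F m) (hu : u ∈ cent z), aeval (⟨rho u, rho_mem_Kz h hu⟩ : Kz z) (mat u).charpoly = 0 := by
    intro u hu
    apply Subtype.ext
    have h1 := Polynomial.aeval_algHom_apply (Kz z).val (⟨rho u, rho_mem_Kz h hu⟩ : Kz z) (mat u).charpoly
    have h2 := aeval_rho h u
    change (Kz z).val (aeval (⟨rho u, rho_mem_Kz h hu⟩ : Kz z) (mat u).charpoly) = 0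
    rw [← h1]
    exact h2
  have hconjroot : ∀ (Q : F[X]), aeval a Q = 0 → ∀ s ∈ Set.range f, aeval s Q = 0 := by
    rintro Q hQ _ ⟨x, rfl⟩
    have h1 := Polynomial.aeval_algHom_apply (Θ x).toAlgHom a Q
    rw [hQ, map_zero] at h1
    exact h1
  set P := (mat A).charpoly with hP
  have hPa : aeval a P = 0 := haeval A hAz
  have hPm : P.Monic := Matrix.charpoly_monic _
  have hPd : P.natDegree = 4 := by
    rw [hP, Matrix.charpoly_natDegree_eq_dim]
    simp
  have hPne : P ≠ 0 := hPm.ne_zero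
  -- the minimal polynomial is `P`
  have hfin : Module.Finite F (Kz z) := Module.Finite.of_finite
  have hint : IsIntegral F a := Algebra.IsIntegral.isIntegral a
  have hμm := minpoly.monic hint
  have hμd : minpoly F a ∣ P := minpoly.dvd F a hPa
  have hμa : aeval a (minpoly F a) = 0 := minpoly.aeval F a
  have hμdeg : 4 ≤ (minpoly F a).natDegree :=
    hS4.trans (ncard_roots_le hK _ hμm.ne_zero _ (hconjroot _ hμa))
  have hPμ : P = minpoly F a :=
    Polynomial.eq_of_monic_of_dvd_of_natDegree_le hμm hPm hμd (by rw [hPd]; exact hμdeg)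
  -- `P` divides `X^N - 1`
  set M := orderOf A with hM
  have hAM : a ^ M = 1 := by
    apply Subtype.ext
    change rho A ^ M = 1
    rw [← map_pow, hM, pow_orderOf_eq_one, map_one]
  have hPdvd : P ∣ X ^ M - 1 := by
    rw [hPμ]
    apply minpoly.dvd
    rw [map_sub, map_pow, aeval_X, map_one, hAM, sub_self]
  -- `g` has the same characteristic polynomial
  have hgP : (mat g).charpoly = P := charpoly_eq_of_tr h htr
  have hgM : g ^ M = 1 := by
    have h1 := aeval_rho h g
    rw [hgP] at h1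
    obtain ⟨Q, hQ⟩ := hPdvd
    have h2 : aeval (rho g) (X ^ M - 1 : F[X]) = 0 := by
      rw [hQ, map_mul, h1, zero_mul]
    have h3 : rho g ^ M - 1 = 0 := by
      rwa [map_sub, map_pow, aeval_X, map_one] at h2
    apply rho_inj
    rw [map_pow, map_one]
    exact sub_eq_zero.mp h3
  -- `g` is fixed-point-free
  have hgF : Fpf g := by
    intro w hw
    obtain ⟨l, hl⟩ := exists_eig_of_fix h hw
    rw [det_homog_eq_of_tr h htr] at hl
    exact no_eig h hA l hl
  have hg1 : g ≠ 1 := Fpf.ne_one h hgF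
  -- `g` lies in a conjugate of the torus
  obtain ⟨q, hq, hqg⟩ := Nat.exists_prime_and_dvd (n := orderOf g) (by
    intro hc
    exact hg1 (orderOf_eq_one_iff.mp hc))
  have hq1 : q ∣ Nat.card (cent g) := hqg.trans (Subgroup.orderOf_dvd_natCard _ (mem_cent_self h g))
  have hq2 : q ∣ Nat.card (cent A) :=
    (hqg.trans (orderOf_dvd_of_pow_eq_one hgM)).trans (Subgroup.orderOf_dvd_natCard _ (mem_cent_self h A))
  let TG : Tor F m := ⟨cent g, g, hgF, rfl⟩
  obtain ⟨x, hx⟩ := tori_conj_of_prime h TA TG hq hq2 hq1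
  have hgx : g ∈ ((x • TA : Tor F m) : Subgroup (G F m)) := by
    rw [← hx]
    exact mem_cent_self h g
  rw [Cfsg.Agent.Lib.Suzuki.Tori2.coe_smul] at hgx
  obtain ⟨u, huA, hu⟩ := hgx
  have hu' : x * u * x⁻¹ = g := hu
  have htru : tr u = tr A := by
    rw [← htr, ← hu', tr_conj]
  have huz : u ∈ cent z := by
    rw [hcz]
    exact huA
  let b : Kz z := ⟨rho u, rho_mem_Kz h huz⟩
  have hbroot : aeval b P = 0 := by
    have h1 := haeval u huz
    rw [charpoly_eq_of_tr h htru] at h1
    exact h1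
  -- `b` is in the range of `f`
  have hbS : b ∈ Set.range f := by
    by_contra hnot
    have hcard := ncard_roots_le hK P hPne (insert b (Set.range f)) (by
      intro s hs
      rcases hs with rfl | hs
      · exact hbroot
      · exact hconjroot P hPa s hs)
    rw [Set.ncard_insert_of_notMem hnot (Set.toFinite _), hPd] at hcard
    omega
  obtain ⟨y, hy⟩ := hbS
  have hu2 : u = y.1 * A * y.1⁻¹ := by
    apply rho_inj
    rw [← hf, hy]
  refine ⟨x * y.1, ?_⟩
  rw [← hu', hu2]
  group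

/-! ### Traces of special elements -/

theorem tr_TL (d : F) : tr (Tg h * Lg h 0 d) = d ^ (2 ^ (m + 1)) := by
  change coefA (mat (Tg h) * mat (Lg h 0 d)) = _
  rw [mat_Tg h, mat_Lg h, coefA]
  simp [Tm, Lm, Matrix.mul_apply, Fin.sum_univ_four, fz_def, zero_pow_sg h]

theorem tr_ZTZT (d : F) :
    tr (Lg h 0 d * Tg h * Lg h 0 d * Tg h) = (d ^ (2 ^ (m + 1))) ^ 2 := by
  change coefA (mat (Lg h 0 d) * mat (Tg h) * mat (Lg h 0 d) * mat (Tg h)) = _
  rw [mat_Tg h, mat_Lg h, coefA]
  simp [Tm, Lm, Matrix.mul_apply, Fin.sum_univ_four, fz_def, zero_pow_sg h]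
  have h2 := h.two_eq_zero
  linear_combination (d ^ 2 + 2) * h2

end Cfsg.Agent.Lib.BinSz.Trace
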